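import Cfsg.Agent.H52.SimXSSpec

/-! S3694, chapter XS, job Iso. -/

set_option autoImplicit false

namespace H98.XsIso

open Subgroup Cfsg H98 Matrix H0.Sim H52.XS

theorem jobIso : JobIso := by
  intro had n F _ _ u q hp R k hR ⟨K, _, _, φ, hK, hφ⟩
  refine ⟨?_, K, inferInstance, inferInstance, hK, ?_⟩
  · rw [Nat.card_congr φ.toEquiv, ← hK]
    change Nat.card (Fin k → Fin k → K) = _
    rw [Nat.card_fun, Nat.card_fun, Nat.card_eq_fintype_card (α := K), Nat.card_eq_fintype_card,
      Fintype.card_fin, pow_mul]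
  let f : GL (Fin k) K →* GL (Fin n) F :=
    Units.map ((R.val : R →* Mt n F).comp (φ.symm : Mt k K →* R))
  have fv : ∀ x : GL (Fin k) K, (f x : Mt n F) = (φ.symm (x : Mt k K) : R) := fun _ => rfl
  have hf : Function.Injective f :=
    Units.map_injective (Subtype.val_injective.comp φ.symm.injective)
  have key : ∀ x : GL (Fin k) K, f x ∈ Gam n F u q ↔ x ∈ Gam k K u q := by
    intro x
    cases u with
    | false => simp [Gam]
    | true =>
      have cF : Fintype.card F = q ^ 2 := by simpa using hp.card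
      have e1 := (had n F q cF).2.2.2.2.2.2 (f x)
      have e2 := (had k K q (hK.trans cF)).2.2.2.2.2.2 x
      simp only [Gam, if_true]
      rw [e1, e2, fv]
      have e3 := hφ rfl (φ.symm (x : Mt k K)) ⟨_, hR rfl _ (φ.symm (x : Mt k K)).2⟩ rfl
      rw [φ.apply_symm_apply] at e3
      rw [← e3]
      constructor
      · intro h
        have h' : (⟨_, hR rfl _ (φ.symm (x : Mt k K)).2⟩ : R) * φ.symm (x : Mt k K) = 1 :=
          Subtype.ext h
        have := congrArg φ h'
        rwa [map_mul, map_one, φ.apply_symm_apply] at this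
      · intro h
        have h' : (⟨_, hR rfl _ (φ.symm (x : Mt k K)).2⟩ : R) * φ.symm (x : Mt k K) = 1 :=
          φ.injective (by rw [map_mul, map_one, φ.apply_symm_apply, h])
        exact congrArg Subtype.val h'
  have e : (Gam k K u q).map f = GR u q R := by
    ext y
    constructor
    · rintro ⟨x, hx, rfl⟩
      refine ⟨(key x).2 hx, (Submonoid.mem_units_iff _ _).2 ⟨(φ.symm (x : Mt k K)).2, ?_⟩⟩
      rw [← map_inv]
      exact (φ.symm ((x⁻¹ : GL (Fin k) K) : Mt k K)).2
    · rintro ⟨h1, h2⟩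
      obtain ⟨h3, h4⟩ := (Submonoid.mem_units_iff _ _).1 h2
      let r : Rˣ := ⟨⟨_, h3⟩, ⟨_, h4⟩, Subtype.ext y.mul_inv, Subtype.ext y.inv_mul⟩
      have e1 : f (Units.map (φ : R →* Mt k K) r) = y := Units.ext (by
        rw [fv]
        exact congrArg Subtype.val (φ.symm_apply_apply r))
      exact ⟨_, (key _).1 (e1.symm ▸ h1), e1⟩
  exact ⟨(((Gam k K u q).equivMapOfInjective f hf).trans (MulEquiv.subgroupCongr e)).symm⟩

end H98.XsIso
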