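import Cfsg.Agent.H53.SimXASpec

/-! S3694, chapter XA, job A4a. -/

set_option autoImplicit false

namespace H98.XaA4a

open Subgroup Cfsg H98 Matrix H0.Sim H53.XA

theorem frame (fr : FR) {n : ℕ} {F : Type} [Field F] [Fintype F] {e : Mt n F} (he : e * e = e) :
    ∃ (P : Matrix (Fin n) (Fin e.rank) F) (P' : Matrix (Fin e.rank) (Fin n) F),
      P' * P = 1 ∧ P * P' = e := by
  obtain ⟨P, P', h⟩ := fr n F false (Fintype.card F) e.rank e (by simp [Fq])
    ⟨he, fun h => absurd h (by decide)⟩ rfl
  exact ⟨P, P', h.l, h.r⟩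

theorem rank_ad (fr : FR) {n : ℕ} {F : Type} [Field F] [Fintype F] {q : ℕ}
    (hF : Fintype.card F = q ^ 2) {e : Mt n F} (he : e * e = e) : (ad q e).rank ≤ e.rank := by
  obtain ⟨P, P', -, h⟩ := frame fr he
  have : ad q e = ad q P' * ad q P := by rw [← ad_mul hF, h]
  rw [this]
  exact (rank_mul_le_left _ _).trans (rank_le_width _)

theorem jobA4a : JA4a := by
  intro fr rk n F _ _ q e fq he ha
  have hF : Fintype.card F = q ^ 2 := by simpa [Fq] using fq
  have ef : e * (1 - e) = 0 := by rw [mul_sub, mul_one, he, sub_self]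
  have fe : (1 - e) * e = 0 := by rw [sub_mul, one_mul, he, sub_self]
  have ff : (1 - e) * (1 - e) = 1 - e := by rw [mul_sub, mul_one, fe, sub_zero]
  have hb : ad q (1 - e) = e := by rw [← ha, ad_ad hF]
  refine ⟨?_, ?_⟩
  · have h1 := rank_ad fr hF he
    have h2 := rank_ad fr hF ff
    have h3 := (rk n F).1 e (1 - e) he ff ef fe
    rw [add_sub_cancel, rank_one, Fintype.card_fin] at h3
    rw [ha] at h1
    rw [hb] at h2
    omega
  obtain ⟨P, P', hl, hr⟩ := frame fr he
  generalize e.rank = k at P P' hl hr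
  have Pe : P' * e = P' := by rw [← hr, ← Matrix.mul_assoc, hl, Matrix.one_mul]
  have eP : e * P = P := by rw [← hr, Matrix.mul_assoc, hl, Matrix.mul_one]
  let φ : Cz true q e →* Mt k F :=
    { toFun := fun y => P' * ((y : GL (Fin n) F) : Mt n F) * P
      map_one' := by simp [hl]
      map_mul' := fun a b => by
        have h := a.2.2
        calc P' * (((a * b : Cz true q e) : GL (Fin n) F) : Mt n F) * P
            = P' * e * ((a : GL (Fin n) F) : Mt n F) * ((b : GL (Fin n) F) : Mt n F) * P := by
              rw [Pe, Subgroup.coe_mul, Units.val_mul]; simp only [Matrix.mul_assoc]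
          _ = P' * (((a : GL (Fin n) F) : Mt n F) * (P * P')) * ((b : GL (Fin n) F) : Mt n F) * P := by
              rw [hr, h, Matrix.mul_assoc P' e]
          _ = _ := by simp only [Matrix.mul_assoc] }
  have φv : ∀ y : Cz true q e, ((φ.toHomUnits y : GL (Fin k) F) : Mt k F) =
      P' * ((y : GL (Fin n) F) : Mt n F) * P := fun _ => rfl
  refine ⟨MulEquiv.ofBijective φ.toHomUnits ⟨(injective_iff_map_eq_one _).2 fun y hy => ?_,
    fun x => ?_⟩⟩
  · have h1 := φv y
    rw [hy, Units.val_one] at h1
    have h2 := (mem_gu hF).1 y.2.1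
    have h3 := y.2.2
    generalize hY : ((y : GL (Fin n) F) : Mt n F) = Y at h1 h2 h3
    have h4 : e * Y * e = e := by
      calc e * Y * e = P * (P' * Y * P) * P' := by rw [← hr]; simp only [Matrix.mul_assoc]
        _ = e := by rw [← h1, Matrix.mul_one, hr]
    rw [← h3, mul_assoc, he] at h4
    have h5 := congrArg (ad q) h4
    rw [ad_mul hF, ha] at h5
    have h6 : (1 - e) * Y = 1 - e := by
      conv_lhs => rw [← h5]
      rw [mul_assoc, h2, mul_one]
    refine Subtype.ext (Units.ext ?_)
    rw [hY]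
    calc Y = e * Y + (1 - e) * Y := by rw [← add_mul, add_sub_cancel, one_mul]
      _ = 1 := by rw [← h3, h4, h6, add_sub_cancel]
  · have left : ∀ z : Mt k F, e * (P * z * P') = P * z * P' := fun z => by
      rw [← Matrix.mul_assoc, ← Matrix.mul_assoc, eP]
    have right : ∀ z : Mt k F, P * z * P' * e = P * z * P' := fun z => by
      rw [Matrix.mul_assoc, Pe]
    have prod : P * ((x⁻¹ : GL (Fin k) F) : Mt k F) * P' * (P * (x : Mt k F) * P') = e := by
      calc _ = P * (((x⁻¹ : GL (Fin k) F) : Mt k F) * ((P' * P) * (x : Mt k F))) * P' := by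
            simp only [Matrix.mul_assoc]
        _ = e := by rw [hl, Matrix.one_mul, Units.inv_mul, Matrix.mul_one, hr]
    have back : P' * (P * (x : Mt k F) * P') * P = x := by
      calc _ = (P' * P) * (x : Mt k F) * (P' * P) := by simp only [Matrix.mul_assoc]
        _ = _ := by rw [hl, Matrix.one_mul, Matrix.mul_one]
    have l1 := left x
    have r1 := right x
    have l2 := left (x⁻¹ : GL (Fin k) F)
    have r2 := right (x⁻¹ : GL (Fin k) F)
    generalize P * (x : Mt k F) * P' = m at prod back l1 r1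
    generalize P * ((x⁻¹ : GL (Fin k) F) : Mt k F) * P' = m' at prod l2 r2
    have a1 : ad q m' * (1 - e) = ad q m' := by rw [← ha, ← ad_mul hF, l2]
    have a2 : (1 - e) * ad q m' = ad q m' := by rw [← ha, ← ad_mul hF, r2]
    have b1 : ad q m * (1 - e) = ad q m := by rw [← ha, ← ad_mul hF, l1]
    have ba : ad q m * ad q m' = 1 - e := by rw [← ad_mul hF, prod, ha]
    have ea : e * ad q m' = 0 := by rw [← a2, ← mul_assoc, ef, zero_mul]
    have ae : ad q m' * e = 0 := by rw [← a1, mul_assoc, fe, mul_zero]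
    have bm : ad q m * m = 0 := by rw [← b1, ← l1, mul_assoc, ← mul_assoc (1 - e), fe, zero_mul,
      mul_zero]
    have ma : m' * ad q m' = 0 := by
      have : m' * e * ad q m' = 0 := by rw [mul_assoc, ea, mul_zero]
      rwa [r2] at this
    have key : ad q (m + ad q m') * (m + ad q m') = 1 := by
      rw [ad_add hF, ad_ad hF, add_mul, mul_add, mul_add, bm, ba, prod, ma, zero_add, add_zero,
        sub_add_cancel]
    let y : GL (Fin n) F := ⟨m + ad q m', ad q (m + ad q m'), mul_eq_one_comm.1 key, key⟩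
    refine ⟨⟨y, (mem_gu hF).2 key, ?_⟩, Units.ext ?_⟩
    · change (m + ad q m') * e = e * (m + ad q m')
      rw [add_mul, mul_add, r1, l1, ea, ae]
    · rw [φv]
      change P' * (m + ad q m') * P = _
      rw [Matrix.mul_add, Matrix.add_mul, back, ← Pe, Matrix.mul_assoc P' e, ea, Matrix.mul_zero,
        Matrix.zero_mul, add_zero]

end H98.XaA4a
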