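import Cfsg.Agent.H91.VCSpec

/-! Tower VC, job SP: a stabiliser that meets `N` in a group of order four. -/

set_option autoImplicit false

namespace H98.VcSP

open H33.Solv H91.VC Subgroup MulAction
open scoped commutatorElement

theorem sect (pd : PD) {G W : Type} [Group G] [Finite G] [AddCommGroup W] [Finite W]
    [DistribMulAction G W] (hs : Group.IsSolvable G) {X : Subgroup G} {A B : AddSubgroup W}
    (hA : ∀ g ∈ X, ∀ w ∈ A, g • w ∈ A) (hB : ∀ g ∈ X, ∀ w ∈ B, g • w ∈ B) (h : B.relIndex A ≤ 4) :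
    ∀ g ∈ ds X 2, ∀ w ∈ A, g • w - w ∈ B := fun g hg w hw => by
  by_cases e : w ∈ B
  · exact sub_mem (hB g (ds_le X 2 hg) w e) e
  let H : Subgroup G :=
    { carrier := {g | g ∈ X ∧ g • w - w ∈ B}
      one_mem' := ⟨one_mem _, by rw [one_smul, sub_self]; exact zero_mem _⟩
      mul_mem' := fun {a b} ha hb => ⟨mul_mem ha.1 hb.1, by
        rw [mul_smul, ← sub_add_sub_cancel _ (a • w), ← smul_sub]
        exact add_mem (hB a ha.1 _ hb.2) ha.2⟩
      inv_mem' := fun {a} ha => ⟨inv_mem ha.1, by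
        have := neg_mem (hB _ (inv_mem ha.1) _ ha.2)
        rwa [smul_sub, inv_smul_smul, neg_sub] at this⟩ }
  let t : X → A := fun x => ⟨(x : G) • w, hA _ x.2 w hw⟩
  let f : Option (X ⧸ H.subgroupOf X) → A ⧸ B.addSubgroupOf A := fun q =>
    q.elim 0 fun q => QuotientAddGroup.mk (t q.out)
  have h0 : ∀ q, f (some q) ≠ 0 := fun q z => e (by
    have := hB _ (inv_mem q.out.2) _ ((QuotientAddGroup.eq_zero_iff (t q.out)).1 z)
    simpa [t] using this)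
  have hf : Function.Injective f := by
    rintro (_ | q) (_ | q') z
    exacts [rfl, (h0 _ z.symm).elim, (h0 _ z).elim, by
      rw [← QuotientGroup.out_eq' q, ← QuotientGroup.out_eq' q', QuotientGroup.eq.2]
      refine ⟨(q.out⁻¹ * q'.out).2, ?_⟩
      have := hB _ (inv_mem q.out.2) _ ((QuotientAddGroup.eq (a := t q.out) (b := t q'.out)).1 z)
      simpa [t, mul_smul, neg_add_eq_sub, smul_sub] using this]
  have h1 := Nat.card_le_card_of_injective f hf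
  rw [Finite.card_option] at h1
  exact (pd G hs X H 3 (by norm_num) (Nat.le_of_succ_le_succ (h1.trans h)) hg).2

theorem jobSP : JobSP := by
  intro pd K G V W _ _ _ _ _ _ _ _ _ _ _ _ _ s N π c hW v hv h4
  set X := stabilizer G v
  set P := N ⊓ centralizer ((N ⊓ X : Subgroup G) : Set G)
  have fp : ∀ a ∈ X, a ∈ s.ι.range → a = 1 := fun a ha hz => (s.fpf a hz v ha).resolve_right hv
  have AP : N ⊓ X ≤ P := fun a ha => ⟨ha.1, fun b hb => commutatorElement_eq_one_iff_mul_comm.1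
    (fp _ (ds_le X 1 (commutator_mem_commutator hb.2 ha.2)) (c.ns.comm b hb.1 a ha.1))⟩
  have ZP : s.ι.range ≤ P := fun z hz => ⟨c.ns.le hz, fun b hb => (c.ns.cent b hb.1 z hz).symm⟩
  have h1 := c.ns.ded N P (N ⊓ X) ⊥ c.ns.cent (fun a ha => c.ns.cent a ha.1)
    (fun a ha b hb => c.ns.comm a ha b hb.1) (fun a _ b hb => by rw [mem_bot.1 hb]; simp)
    fun a ha e => ⟨ha, fun b hb => (e b hb).symm⟩
  have h2 := c.ns.ded (N ⊓ X) ⊥ N P (fun a ha => c.ns.cent a ha.1) c.ns.cent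
    (fun a ha b hb => c.ns.comm a ha.1 b hb) (fun a ha b hb => hb.2 a ha)
    fun a ha e => mem_bot.2 (fp a ha.2 (c.ns.n2 a fun b hb => (e b hb).symm))
  rw [relIndex_bot_left, h4] at h1 h2
  have h3 := relIndex_mul_relIndex _ P N ZP inf_le_left
  rw [← c.sec.card, hW, le_antisymm h1 h2] at h3
  have e1 : c.sec.pre (c.sec.im P) = P := le_antisymm (fun a ha => by
    obtain ⟨h5, b, hb, h6, h7⟩ := c.sec.mem_pre.1 ha
    exact (mul_mem_cancel_left (inv_mem h6)).1 (ZP ((c.sec.eq_iff hb h5).1 h7)))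
    fun a ha => c.sec.mem_pre.2 ⟨ha.1, c.sec.mem_im.2 ⟨a, ha.1, ha, rfl⟩⟩
  have c1 : Nat.card (c.sec.im P) = 16 := by rw [c.sec.card_pre, e1]; omega
  have c2 : Nat.card (c.sec.im (N ⊓ X)) = 4 := h4 ▸ (Nat.card_eq_of_bijective
    (fun a : ↥(N ⊓ X) => (⟨π a, c.sec.mem_im.2 ⟨a, a.2.1, a.2, rfl⟩⟩ : c.sec.im (N ⊓ X)))
    ⟨fun a b e => Subtype.ext (inv_mul_eq_one.1 (fp _ (mul_mem (inv_mem a.2.2) b.2.2)
      ((c.sec.eq_iff a.2.1 b.2.1).1 (congrArg Subtype.val e)))), fun w => by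
      obtain ⟨a, -, ha, e⟩ := c.sec.mem_im.1 w.2
      exact ⟨⟨a, ha⟩, Subtype.ext e⟩⟩).symm
  have inv : ∀ M : Subgroup G, (∀ g ∈ X, ∀ a ∈ M, g * a * g⁻¹ ∈ M) →
      ∀ g ∈ X, ∀ w ∈ c.sec.im M, g • w ∈ c.sec.im M := fun M hM g hg w hw => by
    obtain ⟨a, ha, h5, rfl⟩ := c.sec.mem_im.1 hw
    exact c.sec.mem_im.2 ⟨_, c.ns.nn.conj_mem a ha g, hM g hg a h5, (c.act g a ha).symm⟩
  have nA : ∀ g ∈ X, ∀ a ∈ N ⊓ X, g * a * g⁻¹ ∈ N ⊓ X := fun g hg a ha =>
    ⟨c.ns.nn.conj_mem a ha.1 g, X.mul_mem (X.mul_mem hg ha.2) (X.inv_mem hg)⟩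
  have i2 := inv _ nA
  have i1 := inv P fun g hg a ha => ⟨c.ns.nn.conj_mem a ha.1 g, fun b hb => by
    have := ha.2 _ (nA _ (inv_mem hg) b hb)
    calc _ = g * (g⁻¹ * b * g⁻¹⁻¹ * a) * g⁻¹ := by group
      _ = _ := by rw [this]; group⟩
  have le : c.sec.im (N ⊓ X) ≤ c.sec.im P := fun w hw =>
    let ⟨a, ha, h5, e⟩ := c.sec.mem_im.1 hw; c.sec.mem_im.2 ⟨a, ha, AP h5, e⟩
  have r1 := (c.sec.im P).index_mul_card
  have r2 := AddSubgroup.relIndex_mul_relIndex ⊥ _ _ bot_le le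
  rw [AddSubgroup.relIndex_bot_left, AddSubgroup.relIndex_bot_left, c1, c2] at r2
  rw [c1, hW, ← AddSubgroup.relIndex_top_right] at r1
  have t1 := sect pd c.sol (A := ⊤) (fun _ _ _ _ => trivial) i1 (by omega)
  have t2 := sect pd c.sol i1 i2 (by omega)
  have t3 := sect pd c.sol (B := ⊥) i2 (fun g _ w hw => by
    rw [AddSubgroup.mem_bot.1 hw, smul_zero]; exact zero_mem _) (by
    rw [AddSubgroup.relIndex_bot_left, c2])
  have t4 := chain t2 t3 fun g hg => i1 g (ds_le X 2 hg)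
  have t5 := chain (fun g hg => t1 g (ds_le _ 1 hg)) t4 fun _ _ _ _ => trivial
  exact fun g hg w => sub_eq_zero.1 (AddSubgroup.mem_bot.1 (t5 g hg w trivial))

end H98.VcSP
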