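import Cfsg.Agent.H20.C3Spec

/-! Tower C3, job A3S: the automorphisms of `E₃` and of `S`. -/

set_option autoImplicit false
set_option linter.unusedSimpArgs false

namespace H98.C3A

open Subgroup H20.C3
open H90.RF (cm Au Pr Cg)

variable {X T U Y V : Subgroup Co} {β : Co → Co} {p q φ : Co → F3} {x y u w : Co}

/-- centralizers modulo an invariant subgroup -/
theorem prC (h : Au X β) (hY : Y ≤ X) (pY : Pr β Y) (pU : Pr β U) (hV : V ≤ X) (pV : Pr β V)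
    (hT : T ≤ V) (h1 : ∀ c ∈ T, ∀ y ∈ Y, cm c y ∈ U) (h2 : ∀ c ∈ V, (∀ y ∈ Y, cm c y ∈ U) → c ∈ T) :
    Pr β T := fun c hc => h2 _ (pV c (hT hc)) (h.cm_mem hY pY pU (hV (hT hc)) (h1 c hc))

theorem prB (h : Au X β) : Pr β ⊥ := fun c hc => by rw [mem_bot.1 hc, h.one]; exact one_mem _

/-- `φ` is additive on `T` -/
def Ad (T : Subgroup Co) (φ : Co → F3) : Prop := ∀ u ∈ T, ∀ w ∈ T, φ (u * w) = φ u + φ w

theorem Ad.sub (h : Ad T φ) (hu : u ∈ T) (hw : w ∈ T) : φ (w⁻¹ * u) = φ u - φ w := by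
  have := h w hw _ (mul_mem (inv_mem hw) hu)
  rw [mul_inv_cancel_left] at this
  rw [this, add_sub_cancel_left]

theorem Ad.pow (h : Ad T φ) (hu : u ∈ T) (t : F3) : φ (u ^ t.val) = φ u * t := by
  have : ∀ n : ℕ, φ (u ^ n) = φ u * n := fun n => by
    induction n with
    | zero => simpa using h.sub hu hu
    | succ n ih => rw [pow_succ, h _ (pow_mem hu n) _ hu, ih]; push_cast; ring
  rw [this, ZMod.natCast_zmod_val]

theorem Ad.comp (h : Ad T φ) (a : Au X β) (hT : T ≤ X) (pT : Pr β T) : Ad T fun u => φ (β u) :=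
  fun u hu w hw => by
    show φ (β (u * w)) = _
    rw [a.mul u (hT hu) w (hT hw), h _ (pT u hu) _ (pT w hw)]

theorem lin2 (hp : Ad T p) (hq : Ad T q) (h : Ad T φ) (k : ∀ u ∈ T, p u = 0 → q u = 0 → φ u = 0)
    (hx : x ∈ T) (hy : y ∈ T) (e : p x = 1 ∧ q x = 0 ∧ p y = 0 ∧ q y = 1) (hu : u ∈ T) :
    φ u = φ x * p u + φ y * q u := by
  have h1 := pow_mem hx (p u).val
  have h2 := pow_mem hy (q u).val
  have := k _ (mul_mem (inv_mem (mul_mem h1 h2)) hu)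
    (by rw [hp.sub hu (mul_mem h1 h2), hp _ h1 _ h2, hp.pow hx, hp.pow hy]; simp [e])
    (by rw [hq.sub hu (mul_mem h1 h2), hq _ h1 _ h2, hq.pow hx, hq.pow hy]; simp [e])
  rwa [h.sub hu (mul_mem h1 h2), h _ h1 _ h2, h.pow hx, h.pow hy, sub_eq_zero] at this

/-- `p` is the coordinate on `T / U` -/
structure Lv (T U : Subgroup Co) (p : Co → F3) (x : Co) : Prop where
  ad : Ad T p
  ker : ∀ u, u ∈ U ↔ u ∈ T ∧ p u = 0
  mem : x ∈ T
  one : p x = 1

theorem Lv.lin (l : Lv T U p x) (a : Au X β) (hT : T ≤ X) (pT : Pr β T) (pU : Pr β U) (hu : u ∈ T) :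
    p (β u) = p (β x) * p u := by
  have h := l.ad.comp a hT pT
  have h1 := pow_mem l.mem (p u).val
  have := ((l.ker _).1 (pU _ ((l.ker _).2 ⟨mul_mem (inv_mem h1) hu, by
    rw [l.ad.sub hu h1, l.ad.pow l.mem, l.one, one_mul, sub_self]⟩))).2
  have h2 := h.sub hu h1
  have h3 := h.pow l.mem (p u)
  rwa [h2, h3, sub_eq_zero] at this

theorem Lv.ne (l : Lv T U p x) (a : Au X β) (hT : T ≤ X) (pT : Pr β T) (pU : Pr β U) :
    p (β x) ≠ 0 := fun e => one_ne_zero (l.one.symm.trans ((l.ker x).1 (a.mem_of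
      (fun u hu => hT ((l.ker u).1 hu).1) pU (hT l.mem) ((l.ker _).2 ⟨pT x l.mem, e⟩))).2)

theorem Lv.cg (l : Lv T U p x) (hu : u ∈ T) (hw : w ∈ T) (e : p u = p w) : w⁻¹ * u ∈ U :=
  (l.ker _).2 ⟨mul_mem (inv_mem hw) hu, by rw [l.ad.sub hu hw, e, sub_self]⟩

theorem ne2 : (2 : F3) ≠ 0 := by decide

local macro "cs" : tactic => `(tactic| simp_all [Co.ext_iff, mem_sZ, mem_sZ2, mem_sW, mem_sW2, mem_sZ3, mem_sA5,
  mem_sA, mem_sZ4, mem_sD, mem_sR, mem_sE1, mem_sE2, mem_sE3, mem_sY, cm_d, cm_e, cm_f, cm_g, cm_h, cm_z,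
  xa, xb, xc, xd, xe, xf, xg, xh, xz, ne2])

theorem a3 : A3 := fun β h => by
  have pE : Pr β sE3 := h.mem
  have pZ : Pr β sZ := prC h le_rfl pE (prB h) le_rfl pE (fun _ _ => by cs) (fun c hc y hy => by cs)
    fun c hc k => by
      have h1 := k (xa 1) rfl
      have h2 := k (xb 1) rfl
      have h3 := k (xe 1) rfl
      simp [Co.ext_iff, mem_sZ, mem_sZ2, mem_sE3, cm_d, cm_e, cm_f, cm_g, cm_h, cm_z, xa, xb, xe,
        ne2] at hc h1 h2 h3 ⊢
      grind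
  have pZ2 : Pr β sZ2 := prC h le_rfl pE pZ le_rfl pE (fun _ _ => by cs) (fun c hc y hy => by cs)
    fun c hc k => by
      have h1 := k (xa 1) rfl
      have h2 := k (xb 1) rfl
      have h3 := k (xe 1) rfl
      simp [Co.ext_iff, mem_sZ, mem_sZ2, mem_sE3, cm_d, cm_e, cm_f, cm_g, cm_h, cm_z, xa, xb, xe,
        ne2] at hc h1 h2 h3 ⊢
      grind
  have pR : Pr β sR := prC h (fun _ _ => by cs) pZ2 (prB h) le_rfl pE (fun _ _ => by cs)
    (fun c hc y hy => by cs) fun c hc k => by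
      have h1 := k (xh 1) (by cs)
      cs
  have pW : Pr β sW := prC h (fun _ _ => by cs) pR (prB h) (fun _ _ => by cs) pR (fun _ _ => by cs)
    (fun c hc y hy => by cs) fun c hc k => by
      have h1 := k (xb 1) (by cs)
      have h2 := k (xe 1) (by cs)
      cs
  have pY : Pr β sY := prC h le_rfl pE pW le_rfl pE (fun _ _ => by cs) (fun c hc y hy => by cs)
    fun c hc k => by
      have h1 := k (xa 1) rfl
      have h2 := k (xb 1) rfl
      cs
  have RE : sR ≤ sE3 := fun _ h => h.2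
  have ab : Ad sR (·.b) := fun _ _ _ _ => rfl
  have ae : Ad sR (·.e) := fun u _ w hw => by simp [hw.2]
  refine ⟨pR, pY, pW, pZ2, pZ, fun p4 => prC h (fun _ _ => by cs) p4 pZ (fun _ _ => by cs) pY
    (fun _ _ => by cs) (fun c hc y hy => by cs) fun c hc k => ?_, _, _, _, _, _, fun u hu =>
    ⟨lin2 (x := xb 1) (y := xe 1) ab ae (ab.comp h RE pR)
      (fun u hu a b => (pY u ⟨hu.1, a, hu.2, b⟩).2.1) ⟨rfl, rfl⟩ ⟨rfl, rfl⟩ ⟨rfl, rfl, rfl, rfl⟩ hu,
    lin2 (x := xb 1) (y := xe 1) ab ae (ae.comp h RE pR)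
      (fun u hu a b => (pY u ⟨hu.1, a, hu.2, b⟩).2.2.2) ⟨rfl, rfl⟩ ⟨rfl, rfl⟩ ⟨rfl, rfl, rfl, rfl⟩ hu⟩,
    fun u hu => Lv.lin (p := (·.a)) (x := xa 1) ⟨fun _ _ _ _ => rfl, fun _ => and_comm, rfl, rfl⟩
      h le_rfl pE pR hu⟩
  have h1 := k (xe 1) (by cs)
  cs

theorem lz : Lv sZ ⊥ (·.z) (xz 1) := ⟨fun _ _ _ _ => by cs, fun _ => by cs; tauto, by cs, rfl⟩
theorem lh : Lv sZ2 sZ (·.h) (xh 1) := ⟨fun _ _ _ _ => by cs, fun _ => by cs; tauto, by cs, rfl⟩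
theorem lg : Lv sW sZ2 (·.g) (xg 1) := ⟨fun _ _ _ _ => by cs, fun _ => by cs; tauto, by cs, rfl⟩
theorem lf : Lv sZ3 sW (·.f) (xf 1) := ⟨fun _ _ _ _ => by cs, fun _ => by cs; tauto, by cs, rfl⟩
theorem le' : Lv sA5 sZ3 (·.e) (xe 1) := ⟨fun _ _ _ _ => by cs, fun _ => by cs; tauto, by cs, rfl⟩
theorem ld : Lv sZ4 sA5 (·.d) (xd 1) := ⟨fun _ _ _ _ => by cs, fun _ => by cs; tauto, by cs, rfl⟩
theorem lc : Lv sD sZ4 (·.c) (xc 1) := ⟨fun _ _ _ _ => by cs, fun _ => by cs; tauto, by cs, rfl⟩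
theorem lb : Lv sE1 sD (·.b) (xb 1) := ⟨fun _ _ _ _ => by cs, fun _ => by cs, by cs, rfl⟩
theorem la : Lv ⊤ sE1 (·.a) (xa 1) := ⟨fun _ _ _ _ => by cs, fun _ => by cs, by cs, rfl⟩

theorem aS (hA : Ach) : AS := fun θ h => by
  have pT : Pr θ ⊤ := h.mem
  have pA : Pr θ sA := hA ⊤ le_top θ h
  have key : ∀ {T U V Y : Subgroup Co}, Pr θ Y → Pr θ U → Pr θ V → T ≤ V →
      (∀ c ∈ T, ∀ y ∈ Y, cm c y ∈ U) → (∀ c ∈ V, (∀ y ∈ Y, cm c y ∈ U) → c ∈ T) → Pr θ T :=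
    fun a b c => prC h le_top a b le_top c
  have pZ : Pr θ sZ := key pT (prB h) pT le_top (fun c hc y hy => by cs) fun c hc k => by
    have h1 := k (xa 1) trivial
    have h2 := k (xb 1) trivial
    have h3 := k (xc 1) trivial
    have h4 := k (xe 1) trivial
    cs
  have pZ2 : Pr θ sZ2 := key pT pZ pT le_top (fun c hc y hy => by cs) fun c hc k => by
    have h1 := k (xa 1) trivial
    have h2 := k (xb 1) trivial
    have h3 := k (xc 1) trivial
    cs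
  have pZ3 : Pr θ sZ3 := key pT pZ2 pT le_top (fun c hc y hy => by cs) fun c hc k => by
    have h1 := k (xa 1) trivial
    have h2 := k (xb 1) trivial
    have h3 := k (xc 1) trivial
    cs
  have pZ4 : Pr θ sZ4 := key pT pZ3 pT le_top (fun c hc y hy => by cs) fun c hc k => by
    have h1 := k (xa 1) trivial
    have h2 := k (xb 1) trivial
    cs
  have pA5 : Pr θ sA5 := fun c hc => by
    have h1 := pA c (by cs)
    have h2 := pZ4 c (by cs)
    exact ⟨h1.1, h1.2.1, h1.2.2, h2.2.2⟩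
  have pE1 : Pr θ sE1 := key pZ2 (prB h) pT le_top (fun c hc y hy => by cs) fun c hc k => by
    have h1 := k (xh 1) (by cs)
    cs
  have pD : Pr θ sD := key pZ3 pZ pT le_top (fun c hc y hy => by cs) fun c hc k => by
    have h1 := k (xf 1) (by cs)
    have h2 := k (xg 1) (by cs)
    cs
  have pW : Pr θ sW := key pE1 (prB h) pZ3 (fun _ _ => by cs) (fun c hc y hy => by cs) fun c hc k => by
    have h1 := k (xb 1) (by cs)
    cs
  have pE2 : Pr θ sE2 := key pA pZ3 pT le_top (fun c hc y hy => by cs) fun c hc k => by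
    have h1 := k (xc 1) (by cs)
    cs
  have pW2 : Pr θ sW2 := key pE2 pZ pZ3 (fun _ _ => by cs) (fun c hc y hy => by cs) fun c hc k => by
    have h1 := k (xa 1) (by cs)
    cs
  have pY : Pr θ sY := key pE1 pW2 pZ4 (fun _ _ => by cs) (fun c hc y hy => by cs) fun c hc k => by
    have h1 := k (xb 1) (by cs)
    cs
  have pE3 : Pr θ sE3 := key pY pZ2 pT le_top (fun c hc y hy => by cs) fun c hc k => by
    have h1 := k (xd 1) (by cs)
    cs
  have hc : ∀ s m, θ (cm s m) = cm (θ s) (θ m) := fun s m => h.cm trivial trivial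
  have mb := pE1 _ lb.mem
  have mc := pD _ lc.mem
  have me := pA5 _ le'.mem
  have mg := pW _ lg.mem
  have mh := pZ2 _ lh.mem
  have na := sq_one (la.ne h le_top pT pE1)
  have nb := sq_one (lb.ne h le_top pE1 pD)
  have ed := ld.lin h le_top pZ4 pA5 (u := cm (xa 1) (xb 1)) (by cs)
  have ee := le'.lin h le_top pA5 pZ3 (u := cm (xb 1) (xc 1)) (by cs)
  have ef := lf.lin h le_top pZ3 pW (u := cm (xa 1) (xe 1)) (by cs)
  have eg := lg.lin h le_top pW pZ2 (u := cm (xb 1) (xe 1)) (by cs)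
  have eh := lh.lin h le_top pZ2 pZ (u := cm (xa 1) (xg 1)) (by cs)
  have ez := lz.lin h le_top pZ (prB h) (u := cm (xa 1) (xh 1)) (by cs)
  rw [hc, cm_d, cm_d, mb] at ed
  rw [hc, cm_e, cm_e, mc.2] at ee
  rw [hc, cm_f, cm_f, me.1, me.2.1, me.2.2.1, me.2.2.2] at ef
  rw [hc, cm_g, cm_g, me.2.1, me.2.2.2] at eg
  rw [hc, cm_h, cm_h, mg.1, mg.2.1, mg.2.2.1, mg.2.2.2.1, mg.2.2.2.2.1, mg.2.2.2.2.2] at eh
  rw [hc, cm_z, cm_z, mh.1, mh.2.1, mh.2.2.1, mh.2.2.2.1, mh.2.2.2.2.1, mh.2.2.2.2.2.1,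
    mh.2.2.2.2.2.2] at ez
  refine ⟨fun i => match i with
    | 0 => prB h | 1 => pZ | 2 => pZ2 | 3 => pW | 4 => pZ3 | 5 => pA5 | 6 => pZ4 | 7 => pD | 8 => pE1
    | _ + 9 => pT, pA, pE2, pE3, ⟨(.mk0 _ (la.ne h le_top pT pE1), .mk0 _ (lb.ne h le_top pE1 pD),
      .mk0 _ (lc.ne h le_top pD pZ4)), fun i hi c hc => ?_⟩⟩
  interval_cases i
  · change c ∈ sZ at hc
    refine lz.cg (pZ c hc) (by simp_all [sd, mem_sZ]) ((lz.lin h le_top pZ (prB h) hc).trans ?_)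
    simp only [sd, Units.val_mk0, xa, xb, xc, xe, xg, xh, xz] at *
    grind
  · change c ∈ sZ2 at hc
    refine lh.cg (pZ2 c hc) (by simp_all [sd, mem_sZ2]) ((lh.lin h le_top pZ2 pZ hc).trans ?_)
    simp only [sd, Units.val_mk0, xa, xb, xc, xe, xg, xh, xz] at *
    grind
  · change c ∈ sW at hc
    refine lg.cg (pW c hc) (by simp_all [sd, mem_sW]) ((lg.lin h le_top pW pZ2 hc).trans ?_)
    simp only [sd, Units.val_mk0, xa, xb, xc, xe, xg, xh, xz] at *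
    grind
  · change c ∈ sZ3 at hc
    refine lf.cg (pZ3 c hc) (by simp_all [sd, mem_sZ3]) ((lf.lin h le_top pZ3 pW hc).trans ?_)
    simp only [sd, Units.val_mk0, xa, xb, xc, xe, xg, xh, xz] at *
    grind
  · change c ∈ sA5 at hc
    refine le'.cg (pA5 c hc) (by simp_all [sd, mem_sA5]) ((le'.lin h le_top pA5 pZ3 hc).trans ?_)
    simp only [sd, Units.val_mk0, xa, xb, xc, xe, xg, xh, xz] at *
    grind
  · change c ∈ sZ4 at hc
    refine ld.cg (pZ4 c hc) (by simp_all [sd, mem_sZ4]) ((ld.lin h le_top pZ4 pA5 hc).trans ?_)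
    simp only [sd, Units.val_mk0, xa, xb, xc, xe, xg, xh, xz] at *
    grind
  · change c ∈ sD at hc
    exact lc.cg (pD c hc) (by simp_all [sd, mem_sD]) (lc.lin h le_top pD pZ4 hc)
  · change c ∈ sE1 at hc
    exact lb.cg (pE1 c hc) (by simp_all [sd, mem_sE1]) (lb.lin h le_top pE1 pD hc)
  · exact la.cg trivial trivial (la.lin h le_top pT pE1 trivial)

theorem jobA3S : JobA3S := fun h => ⟨a3, aS h⟩

end H98.C3A
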