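import Cfsg.Agent.H98.CsH
import Cfsg.Agent.S4160
import Cfsg.Agent.S0564

/-! Two primes at distance three in the class size graph force solvability. -/

set_option autoImplicit false
open Cfsg H4 H98.CsH
open scoped Pointwise

namespace H98.CsMain

variable {G : Type*} [Group G]

/-- `N` is a normal `p`-complement. -/
structure NC (p : ℕ) (N : Subgroup G) : Prop where
  normal : N.Normal
  idx : ∃ k, N.index = p ^ k
  card : ¬ p ∣ Nat.card N

theorem nc_of_has [Finite G] {p : ℕ} [Fact p.Prime] (h : HasNormalPComplement p G) :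
    ∃ N : Subgroup G, NC p N := by
  obtain ⟨P, N, hN, hc⟩ := h
  obtain ⟨k, hk⟩ := P.isPGroup'.exists_card_eq
  refine ⟨N, hN, ⟨k, by rw [hc.symm.index_eq_card, hk]⟩, ?_⟩
  rw [← hc.index_eq_card]
  exact P.not_dvd_index

theorem NC.mem [Finite G] {p : ℕ} (hp : p.Prime) {N : Subgroup G} (h : NC p N) {x : G}
    (hx : ¬ p ∣ orderOf x) : x ∈ N := by
  haveI := h.normal
  obtain ⟨k, hk⟩ := h.idx
  refine mem_of_coprime_index ?_
  rw [hk]
  exact (((Nat.Prime.coprime_iff_not_dvd hp).mpr hx).symm).pow_right k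

theorem NC.sylow_le [Finite G] {p r : ℕ} (hp : p.Prime) [Fact r.Prime] (hrp : r ≠ p)
    {N : Subgroup G} (h : NC p N) (R : Sylow r G) : (R : Subgroup G) ≤ N := fun _ hx =>
  h.mem hp (not_dvd_order_of_mem_sylow hp hrp R hx)

theorem NC.mul [Finite G] {p : ℕ} (hp : p.Prime) {N : Subgroup G} (h : NC p N) {H : Subgroup G}
    (hH : ¬ p ∣ H.index) (g : G) : ∃ u ∈ H, ∃ n ∈ N, g = u * n := by
  obtain ⟨k, hk⟩ := h.idx
  refine exists_mul_of_coprime_index ?_ g
  rw [hk]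
  exact (((Nat.Prime.coprime_iff_not_dvd hp).mpr hH).symm).pow_right k

theorem NC.not_dvd_order [Finite G] {p : ℕ} {N : Subgroup G} (h : NC p N) {x : G} (hx : x ∈ N) :
    ¬ p ∣ orderOf x := fun hd => h.card (hd.trans (N.orderOf_dvd_natCard hx))

theorem conj_mem_cent {Q : Subgroup G} {m x : G} (hm : m ∈ Subgroup.normalizer (Q : Set G))
    (hx : m * x * m⁻¹ ∈ Subgroup.centralizer (Q : Set G)) : x ∈ Subgroup.centralizer (Q : Set G) := by
  intro y hy
  have h1 := hx (m * y * m⁻¹) ((Subgroup.mem_normalizer_iff.mp hm y).mp hy)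
  calc y * x = m⁻¹ * (m * y * m⁻¹ * (m * x * m⁻¹)) * m := by group
    _ = m⁻¹ * (m * x * m⁻¹ * (m * y * m⁻¹)) * m := by rw [h1]
    _ = x * y := by group

theorem der [Finite G] {q : ℕ} [Fact q.Prime] (Q : Sylow q G) {J N : Subgroup G} [J.Normal]
    (hQJ : (Q : Subgroup G) ≤ J) (hN : ∀ g : G, ∃ u ∈ (Q : Subgroup G), ∃ n ∈ N, g = u * n)
    {x : G} (hx : ¬ q ∣ ind x) :
    ∃ k ∈ J ⊓ N, k * x * k⁻¹ ∈ Subgroup.centralizer ((Q : Subgroup G) : Set G) := by
  obtain ⟨g, hg⟩ := exists_conj_mem_centralizer_sylow Q hx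
  have h1 : g ∈ Subgroup.normalizer ((Q : Subgroup G) : Set G) ⊔ J := by
    have h0 : Subgroup.normalizer ((Q : Subgroup G) : Set G) ⊔ J = ⊤ :=
      Sylow.normalizer_sup_eq_top' Q hQJ
    rw [h0]; trivial
  obtain ⟨m, hm, j, hj, rfl⟩ := Subgroup.mem_sup_of_normal_right.mp h1
  obtain ⟨u, hu, n, hn, rfl⟩ := hN j
  refine ⟨n, ⟨by simpa using J.mul_mem (J.inv_mem (hQJ hu)) hj, hn⟩, ?_⟩
  refine conj_mem_cent (Subgroup.mul_mem _ hm (Subgroup.le_normalizer hu)) ?_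
  convert hg using 1
  group

theorem direct_factor [Finite G] {p q : ℕ} (hp : p.Prime) [Fact q.Prime] (hpq : p ≠ q)
    (Q : Sylow q G) {J N : Subgroup G} [J.Normal] (hQJ : (Q : Subgroup G) ≤ J) (hN : NC q N)
    (hc : J ⊓ N ≤ Subgroup.centralizer ((Q : Subgroup G) : Set G))
    {x y : G} (hx : p ∣ ind x) (hy : q ∣ ind y) : ∃ z : G, p ∣ ind z ∧ q ∣ ind z := by
  have hq : q.Prime := Fact.out
  haveI : Fact p.Prime := ⟨hp⟩
  haveI := hN.normal
  haveI hn : (Q : Subgroup G).Normal := by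
    rw [← Subgroup.normalizer_eq_top_iff, eq_top_iff, ← Sylow.normalizer_sup_eq_top' Q hQJ]
    refine sup_le le_rfl fun j hj => ?_
    obtain ⟨u, hu, n, hn, rfl⟩ := hN.mul hq Q.not_dvd_index j
    exact Subgroup.mul_mem _ (Subgroup.le_normalizer hu) (Subgroup.centralizer_le_normalizer _
      (hc ⟨by simpa using J.mul_mem (J.inv_mem (hQJ hu)) hj, hn⟩))
  have hcen : ∀ b : G, ¬ q ∣ orderOf b → b ∈ Subgroup.centralizer ((Q : Subgroup G) : Set G) := by
    intro b hb a ha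
    refine (Subgroup.commute_of_normal_of_disjoint (Q : Subgroup G) N hn hN.normal ?_ a b ha
      (hN.mem hq hb)).eq
    rw [Subgroup.disjoint_def]
    intro z hz hzN
    obtain ⟨k, hk⟩ := Q.isPGroup' ⟨z, hz⟩
    have h1 : orderOf z ∣ q ^ k :=
      orderOf_dvd_of_pow_eq_one (by simpa using congrArg Subtype.val hk)
    exact orderOf_eq_one_iff.mp (Nat.eq_one_of_dvd_coprimes
      ((((Nat.Prime.coprime_iff_not_dvd hq).mpr (hN.not_dvd_order hzN)).symm).pow_right k)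
      dvd_rfl h1)
  obtain ⟨e, f, hef, ⟨k, hk⟩, hf⟩ := H24.exists_p_decomp hq x
  obtain ⟨e', f', hef', ⟨k', hk'⟩, hf'⟩ := H24.exists_p_decomp hq y
  have hb : p ∣ ind (x ^ f) := by
    by_contra hh
    obtain ⟨P, hP⟩ := H18.exists_sylow_le_of_not_dvd (p := p) hh
    refine not_dvd_ind_of_mem_centralizer_sylow P ?_ hx
    rw [← hef]
    refine Subgroup.mul_mem _ (fun z hz => ?_) (le_cent_iff_mem_centralizer.mp hP)
    exact (hcen z (not_dvd_order_of_mem_sylow hq hpq P hz) _ (mem_sylow_of_normal Q hk)).symm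
  have ha : q ∣ ind (y ^ e') := by
    by_contra hh
    obtain ⟨Q', hQ'⟩ := H18.exists_sylow_le_of_not_dvd (p := q) hh
    have hQQ : Q' = Q := by
      haveI := Sylow.unique_of_normal Q hn
      exact Subsingleton.elim _ _
    subst hQQ
    refine not_dvd_ind_of_mem_centralizer_sylow Q' ?_ hy
    rw [← hef']
    exact Subgroup.mul_mem _ (le_cent_iff_mem_centralizer.mp hQ') (hcen _ hf')
  have hcm : Commute (y ^ e') (x ^ f) := hcen _ hf _ (mem_sylow_of_normal Q hk')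
  have hco : (orderOf (y ^ e')).Coprime (orderOf (x ^ f)) := by
    rw [hk']
    exact ((Nat.Prime.coprime_iff_not_dvd hq).mpr hf).pow_left k'
  exact ⟨_, hb.trans (ind_dvd_ind_mul_right hcm hco), ha.trans (ind_dvd_ind_mul_left hcm hco)⟩

/-- Lemma I. -/
theorem index_cent [Finite G] (τ : ℕ → Prop) {p q : ℕ} [Fact p.Prime] [Fact q.Prime] (hpq : p ≠ q)
    (P : Sylow p G) (Q : Sylow q G) {M N : Subgroup G} (hM : NC p M) (hN : NC q N)
    (hPQ : (P : Subgroup G) ≤ Subgroup.centralizer ((Q : Subgroup G) : Set G))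
    (hτ : ∀ x : G, q ∣ ind x → ∀ r : ℕ, r.Prime → r ∣ ind x → τ r) (hτp : ¬ τ p)
    (hD : ¬ (M ⊓ N) ⊓ Subgroup.centralizer ((P : Subgroup G) : Set G) ≤
      Subgroup.centralizer ((Q : Subgroup G) : Set G))
    {r : ℕ} (hr : r.Prime) (hτr : ¬ τ r) :
    ¬ r ∣ (Subgroup.centralizer ((P : Subgroup G) : Set G)).index := by
  have hp : p.Prime := Fact.out
  have hq : q.Prime := Fact.out
  haveI := hM.normal
  haveI : Fact r.Prime := ⟨hr⟩
  have hγ : ∀ γ ∈ (P : Subgroup G), ∀ s : ℕ, s.Prime → s ∣ ind γ → τ s := by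
    intro γ hγ s hs hd
    set Y := Subgroup.centralizer ({γ} : Set G)
    have hQY : (Q : Subgroup G) ≤ Y := le_cent_iff_mem_centralizer.mpr (hPQ hγ)
    obtain ⟨c, hc, hcd⟩ : ∃ c ∈ (M ⊓ N) ⊓ Y, ∀ g ∈ (M ⊓ N) ⊓ Y,
        g * c * g⁻¹ ∉ Subgroup.centralizer ((Q : Subgroup G) : Set G) := by
      by_contra hh
      push Not at hh
      refine hD (le_trans (inf_le_inf_left _ fun z hz => ?_) (le_of_forall_conj_mem hh))
      exact mem_cent_iff.mpr (hz γ hγ).symm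
    have hco : (orderOf γ).Coprime (orderOf c) := by
      obtain ⟨k, hk⟩ := P.isPGroup' ⟨γ, hγ⟩
      have h1 : orderOf γ ∣ p ^ k :=
        orderOf_dvd_of_pow_eq_one (by simpa using congrArg Subtype.val hk)
      exact Nat.Coprime.coprime_dvd_left h1
        (((Nat.Prime.coprime_iff_not_dvd hp).mpr (hM.not_dvd_order hc.1.1)).pow_left k)
    have hqc : q ∣ ind (⟨c, hc.2⟩ : Y) := by
      by_contra hh
      obtain ⟨k, hk, hk'⟩ := der (Q.subtype hQY) (J := M.subgroupOf Y) (N := N.subgroupOf Y)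
        (fun z hz => hM.sylow_le hp hpq.symm Q hz) (fun g => by
          obtain ⟨u, hu, n, hn, he⟩ := hN.mul hq Q.not_dvd_index (g : G)
          have hnY : n ∈ Y := by
            have h2 : n = u⁻¹ * g := by rw [he]; group
            rw [h2]
            exact Y.mul_mem (Y.inv_mem (hQY hu)) g.2
          exact ⟨⟨u, hQY hu⟩, hu, ⟨n, hnY⟩, hn, Subtype.ext he⟩) hh
      refine hcd k ⟨⟨hk.1, hk.2⟩, k.2⟩ fun z hz => ?_
      exact congrArg Subtype.val (hk' ⟨z, hQY hz⟩ hz)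
    have hcm : Commute γ c := (mem_cent_iff.mp hc.2).symm
    exact hτ (γ * c) (hqc.trans (ind_sub_dvd_mul ⟨c, hc.2⟩ hco)) s hs
      (hd.trans (ind_dvd_ind_mul_left hcm hco))
  obtain ⟨R⟩ : Nonempty (Sylow r G) := inferInstance
  set C := Subgroup.centralizer ((R : Subgroup G) : Set G)
  have hP : (P : Subgroup G) ≤ C ⊔ M := by
    intro γ hγ'
    obtain ⟨g, hg⟩ := exists_conj_mem_centralizer_sylow R (x := γ) fun hd => hτr (hγ γ hγ' r hr hd)
    obtain ⟨a, ha, n, hn, he⟩ := hM.mul hp (H := Subgroup.centralizer ({γ} : Set G))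
      (fun hd => hτp (hγ γ hγ' p hp hd)) g⁻¹
    have ha' : a * γ = γ * a := mem_cent_iff.mp ha
    have hg' : g = n⁻¹ * a⁻¹ := by rw [← mul_inv_rev, ← he, inv_inv]
    have h3 : γ = n * (g * γ * g⁻¹) * n⁻¹ := by
      rw [he, hg']
      calc γ = a⁻¹ * (a * γ) := by group
        _ = a⁻¹ * (γ * a) := by rw [ha']
        _ = _ := by group
    rw [h3]
    exact Subgroup.mul_mem _ (Subgroup.mul_mem _ (Subgroup.mem_sup_right hn)
      (Subgroup.mem_sup_left hg)) (Subgroup.inv_mem _ (Subgroup.mem_sup_right hn))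
  have htop : C ⊔ M = ⊤ := by
    refine eq_top_iff.mpr fun g _ => ?_
    obtain ⟨u, hu, n, hn, rfl⟩ := hM.mul hp P.not_dvd_index g
    exact Subgroup.mul_mem _ (hP hu) (Subgroup.mem_sup_right hn)
  have hCi : ¬ p ∣ C.index := by
    intro hd
    have h1 : Nat.card C * C.index = Nat.card M * M.index := by
      rw [C.card_mul_index, M.card_mul_index]
    have h2 : M.relIndex C = M.index := by
      rw [← Subgroup.relIndex_sup_right, htop, Subgroup.relIndex_top_right]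
    obtain ⟨t, ht⟩ : M.index ∣ Nat.card C := h2 ▸ Subgroup.relIndex_dvd_card _ _
    rw [ht, mul_comm (Nat.card M), mul_assoc] at h1
    have h3 := Nat.eq_of_mul_eq_mul_left (Nat.pos_of_ne_zero Subgroup.index_ne_zero_of_finite) h1
    exact hM.card (h3 ▸ hd.mul_left t)
  obtain ⟨P', hP'⟩ := H18.exists_sylow_le_of_not_dvd (p := p) hCi
  obtain ⟨g, rfl⟩ := MulAction.exists_smul_eq G P P'
  have hR : ((g⁻¹ • R : Sylow r G) : Subgroup G) ≤
      Subgroup.centralizer ((P : Subgroup G) : Set G) := by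
    intro z hz y hy
    have h1 : g * z * g⁻¹ ∈ (R : Subgroup G) := by
      have h2 := Subgroup.mem_pointwise_smul_iff_inv_smul_mem.mp hz
      simpa using h2
    have h3 : g * y * g⁻¹ ∈ C :=
      hP' (Subgroup.smul_mem_pointwise_smul y (MulAut.conj g) _ hy)
    have h4 := h3 _ h1
    calc y * z = g⁻¹ * (g * y * g⁻¹ * (g * z * g⁻¹)) * g := by group
      _ = g⁻¹ * (g * z * g⁻¹ * (g * y * g⁻¹)) * g := by rw [h4]
      _ = z * y := by group
  exact fun hd => (g⁻¹ • R).not_dvd_index (hd.trans (Subgroup.index_dvd_of_le hR))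

/-- Lemma H inside `J ⊓ N`. -/
theorem nil_in [Finite G] (τ : ℕ → Prop) {p q : ℕ} (hp : p.Prime) [Fact q.Prime] (hpq : p ≠ q)
    (Q : Sylow q G) {J N K : Subgroup G} [J.Normal] (hQJ : (Q : Subgroup G) ≤ J) (hN : NC q N)
    (hK : K = J ⊓ N)
    (hτ : ∀ x : G, q ∣ ind x → ∀ r : ℕ, r.Prime → r ∣ ind x → τ r)
    (hc : ¬ K ≤ Subgroup.centralizer ((Q : Subgroup G) : Set G))
    (hi : ∀ r : ℕ, r.Prime → r ∣ (Subgroup.centralizer ((Q : Subgroup G) : Set G)).relIndex K →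
      ¬ τ r) :
    ∃ H : Subgroup K, Group.IsNilpotent H ∧ ∀ r : ℕ, r.Prime → r ∣ H.index → τ r := by
  subst hK
  haveI := hN.normal
  refine nil_of_derangements τ
    (C := (Subgroup.centralizer ((Q : Subgroup G) : Set G)).subgroupOf (J ⊓ N))
    (fun h => hc (Subgroup.subgroupOf_eq_top.mp h)) hi fun x hx r hr hd => ?_
  refine hτ x ?_ r hr (hd.trans ?_)
  · by_contra hh
    obtain ⟨k, hk, hk'⟩ := der Q hQJ (hN.mul Fact.out Q.not_dvd_index) hh
    exact hx ⟨k, hk⟩ hk'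
  · rw [ind_sub]
    exact relIndex_dvd_index_of_normal_right _ _

theorem exists_min_nonsolvable [Finite G] (hG : ¬ Group.IsSolvable G) :
    ∃ D : Subgroup G, ¬ Group.IsSolvable D ∧
      ∀ (p : ℕ) (N : Subgroup G), p.Prime → NC p N → D ≤ N := by
  obtain ⟨D, hD⟩ := exists_minimal_of_wellFoundedLT (fun D : Subgroup G => ¬ Group.IsSolvable D)
    ⟨⊤, fun h => hG (solvable_of_surjective (f := (⊤ : Subgroup G).subtype)
      fun g => ⟨⟨g, trivial⟩, rfl⟩)⟩
  refine ⟨D, hD.prop, fun p N hp hN => ?_⟩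
  haveI := hN.normal
  haveI : Fact p.Prime := ⟨hp⟩
  obtain ⟨k, hk⟩ := hN.idx
  have hq : IsPGroup p (G ⧸ N) := IsPGroup.of_card (by rw [← hk]; rfl)
  haveI := hq.isNilpotent
  have h1 : ¬ Group.IsSolvable ↥(D ⊓ N) := fun h => hD.prop
    (solvable_of_ker_le_range (Subgroup.inclusion (inf_le_left : D ⊓ N ≤ D))
      ((QuotientGroup.mk' N).comp D.subtype) fun x hx =>
        ⟨⟨x, x.2, (QuotientGroup.eq_one_iff _).mp hx⟩, rfl⟩)
  exact (hD.le_of_le h1 inf_le_left).trans inf_le_right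

theorem core [Finite G] (hG : ¬ Group.IsSolvable G) {p q : ℕ} (hp : p.Prime) (hq : q.Prime)
    (hpq : p ≠ q) {x y : G} (hx : p ∣ ind x) (hy : q ∣ ind y)
    (hd : ∀ r : ℕ, r.Prime → (∃ a : G, p ∣ ind a ∧ r ∣ ind a) →
      (∃ b : G, q ∣ ind b ∧ r ∣ ind b) → False)
    (hqn : HasNormalPComplement q G) : False := by
  haveI : Fact p.Prime := ⟨hp⟩
  haveI : Fact q.Prime := ⟨hq⟩
  obtain ⟨D, hD, hDN⟩ := exists_min_nonsolvable hG
  have hfin : ∀ K : Subgroup G, D ≤ K → Group.IsSolvable K → False := fun K hK hs =>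
    hD (solvable_of_solvable_injective (f := Subgroup.inclusion hK) (Subgroup.inclusion_injective hK))
  have hno : ∀ z : G, p ∣ ind z → q ∣ ind z → False := fun z h1 h2 =>
    hd q hq ⟨z, h1, h2⟩ ⟨z, h2, h2⟩
  let τ : ℕ → Prop := fun r => ∃ b : G, q ∣ ind b ∧ r ∣ ind b
  let σ : ℕ → Prop := fun r => ∃ a : G, p ∣ ind a ∧ r ∣ ind a
  have hτ : ∀ x : G, q ∣ ind x → ∀ r : ℕ, r.Prime → r ∣ ind x → τ r := fun z h1 r _ h2 => ⟨z, h1, h2⟩
  have hσ : ∀ x : G, p ∣ ind x → ∀ r : ℕ, r.Prime → r ∣ ind x → σ r := fun z h1 r _ h2 => ⟨z, h1, h2⟩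
  have hτp : ¬ τ p := fun ⟨b, h1, h2⟩ => hno b h2 h1
  have hσq : ¬ σ q := fun ⟨b, h1, h2⟩ => hno b h1 h2
  obtain ⟨N, hN⟩ := nc_of_has hqn
  haveI := hN.normal
  obtain ⟨Q⟩ : Nonempty (Sylow q G) := inferInstance
  by_cases hpn : HasNormalPComplement p G
  · obtain ⟨M, hM⟩ := nc_of_has hpn
    haveI := hM.normal
    have hQM : (Q : Subgroup G) ≤ M := hM.sylow_le hp hpq.symm Q
    obtain ⟨P, hP⟩ : ∃ P : Sylow p G,
        (P : Subgroup G) ≤ Subgroup.normalizer ((Q : Subgroup G) : Set G) := by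
      refine H18.exists_sylow_le_of_not_dvd fun hh => ?_
      set C := Subgroup.normalizer ((Q : Subgroup G) : Set G)
      have htop : C ⊔ M = ⊤ := Sylow.normalizer_sup_eq_top' Q hQM
      have h1 : Nat.card C * C.index = Nat.card M * M.index := by
        rw [C.card_mul_index, M.card_mul_index]
      have h2 : M.relIndex C = M.index := by
        rw [← Subgroup.relIndex_sup_right, htop, Subgroup.relIndex_top_right]
      obtain ⟨t, ht⟩ : M.index ∣ Nat.card C := h2 ▸ Subgroup.relIndex_dvd_card _ _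
      rw [ht, mul_comm (Nat.card M), mul_assoc] at h1
      have h3 := Nat.eq_of_mul_eq_mul_left (Nat.pos_of_ne_zero Subgroup.index_ne_zero_of_finite) h1
      exact hM.card (h3 ▸ hh.mul_left t)
    have hPN : (P : Subgroup G) ≤ N := hN.sylow_le hq hpq P
    have hPQ : (P : Subgroup G) ≤ Subgroup.centralizer ((Q : Subgroup G) : Set G) := by
      intro a ha b hb
      have h1 : b * (a * b⁻¹ * a⁻¹) ∈ (Q : Subgroup G) := Subgroup.mul_mem _ hb
        ((Subgroup.mem_normalizer_iff.mp (hP ha) _).mp (Subgroup.inv_mem _ hb))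
      have h2 : b * (a * b⁻¹ * a⁻¹) ∈ N := by
        have h3 := N.mul_mem (hN.normal.conj_mem a (hPN ha) b) (N.inv_mem (hPN ha))
        convert h3 using 1
        group
      have h4 : b * (a * b⁻¹ * a⁻¹) = 1 := by
        obtain ⟨k, hk⟩ := Q.isPGroup' ⟨_, h1⟩
        have h5 : orderOf (b * (a * b⁻¹ * a⁻¹)) ∣ q ^ k :=
          orderOf_dvd_of_pow_eq_one (congrArg Subtype.val hk)
        exact orderOf_eq_one_iff.mp (Nat.eq_one_of_dvd_coprimes
          ((((Nat.Prime.coprime_iff_not_dvd hq).mpr (hN.not_dvd_order h2)).symm).pow_right k)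
          dvd_rfl h5)
      calc b * a = b * (a * b⁻¹ * a⁻¹) * (a * b) := by group
        _ = a * b := by rw [h4, one_mul]
    have hQP : (Q : Subgroup G) ≤ Subgroup.centralizer ((P : Subgroup G) : Set G) :=
      Subgroup.le_centralizer_iff.mp hPQ
    have hcQ : ¬ M ⊓ N ≤ Subgroup.centralizer ((Q : Subgroup G) : Set G) := fun h => by
      obtain ⟨z, h1, h2⟩ := direct_factor hp hpq Q hQM hN h hx hy
      exact hno z h1 h2
    have hcP : ¬ M ⊓ N ≤ Subgroup.centralizer ((P : Subgroup G) : Set G) := fun h => by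
      obtain ⟨z, h1, h2⟩ := direct_factor hq hpq.symm P hPN hM (by rwa [inf_comm]) hy hx
      exact hno z h2 h1
    have hcov : ∀ z : G,
        (∃ k ∈ M ⊓ N, k * z * k⁻¹ ∈ Subgroup.centralizer ((P : Subgroup G) : Set G)) ∨
        ∃ k ∈ M ⊓ N, k * z * k⁻¹ ∈ Subgroup.centralizer ((Q : Subgroup G) : Set G) := by
      intro z
      by_cases h : q ∣ ind z
      · obtain ⟨k, hk, hk'⟩ := der P hPN (hM.mul hp P.not_dvd_index) fun h' => hno z h' h
        exact Or.inl ⟨k, ⟨hk.2, hk.1⟩, hk'⟩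
      · exact Or.inr (der Q hQM (hN.mul hq Q.not_dvd_index) h)
    have hD1 : ¬ (M ⊓ N) ⊓ Subgroup.centralizer ((P : Subgroup G) : Set G) ≤
        Subgroup.centralizer ((Q : Subgroup G) : Set G) := fun h =>
      hcQ (le_of_forall_conj_mem fun z hz => (hcov z).elim
        (fun ⟨k, hk, hk'⟩ => ⟨k, hk, h ⟨(M ⊓ N).mul_mem ((M ⊓ N).mul_mem hk hz)
          ((M ⊓ N).inv_mem hk), hk'⟩⟩) id)
    have hD2 : ¬ (N ⊓ M) ⊓ Subgroup.centralizer ((Q : Subgroup G) : Set G) ≤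
        Subgroup.centralizer ((P : Subgroup G) : Set G) := fun h =>
      hcP (le_of_forall_conj_mem fun z hz => (hcov z).elim id
        (fun ⟨k, hk, hk'⟩ => ⟨k, hk, h ⟨by
          rw [inf_comm]
          exact (M ⊓ N).mul_mem ((M ⊓ N).mul_mem hk hz) ((M ⊓ N).inv_mem hk), hk'⟩⟩))
    obtain ⟨H₁, hH₁, hi₁⟩ := nil_in τ hp hpq Q hQM hN rfl hτ hcQ fun r hr h1 h2 =>
      index_cent σ hpq.symm Q P hN hM hQP hσ hσq hD2 hr (fun h3 => hd r hr h3 h2)
        (h1.trans (relIndex_dvd_index_of_normal_right _ _))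
    obtain ⟨H₂, hH₂, hi₂⟩ := nil_in σ hq hpq.symm P (K := M ⊓ N) hPN hM (inf_comm _ _) hσ hcP
      fun r hr h1 h2 => index_cent τ hpq P Q hM hN hPQ hτ hτp hD1 hr (fun h3 => hd r hr h2 h3)
        (h1.trans (relIndex_dvd_index_of_normal_right _ _))
    exact hfin (M ⊓ N) (le_inf (hDN p M hp hM) (hDN q N hq hN))
      (Cfsg.Agent.S0564.result H₁ H₂ hH₁ hH₂ (exists_mul_of_coprime_index
        (coprime_of_primes τ hi₁ fun r hr h1 h2 => hd r hr (hi₂ r hr h1) h2)))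
  · have hall : ∀ r : {r : ℕ // r.Prime ∧ τ r ∧ r ≠ q}, ∃ L : Subgroup G, NC r.1 L := by
      rintro ⟨r, hr, ⟨b, hb1, hb2⟩, hrq⟩
      haveI : Fact r.Prime := ⟨hr⟩
      have hpr : p ≠ r := by
        rintro rfl
        exact hno b hb2 hb1
      refine nc_of_has ((Cfsg.Agent.S4160.result p r hp hr hpr ⟨x, hx⟩ ⟨b, hb2⟩
        fun z hz => ?_).resolve_left hpn)
      exact hd r hr ⟨z, (Dvd.intro _ rfl).trans hz, (Dvd.intro_left _ rfl).trans hz⟩ ⟨b, hb1, hb2⟩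
    choose L hL using hall
    haveI hJ : (⨅ r, L r).Normal := Subgroup.normal_iInf_normal fun r => (hL r).normal
    have hQJ : (Q : Subgroup G) ≤ ⨅ r, L r :=
      le_iInf fun r => (hL r).sylow_le r.2.1 r.2.2.2.symm Q
    have hcard : ∀ r : ℕ, r.Prime → r ∣ Nat.card ↥((⨅ r, L r) ⊓ N) → ¬ τ r := by
      intro r hr h1 h2
      by_cases hrq : r = q
      · exact hN.card (hrq ▸ h1.trans (Subgroup.card_dvd_of_le inf_le_right))
      · exact (hL ⟨r, hr, h2, hrq⟩).card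
          (h1.trans (Subgroup.card_dvd_of_le (inf_le_left.trans (iInf_le _ _))))
    obtain ⟨H, hH, hi⟩ := nil_in τ hp hpq Q hQJ hN rfl hτ (fun h => by
        obtain ⟨z, h1, h2⟩ := direct_factor hp hpq Q hQJ hN h hx hy
        exact hno z h1 h2)
      fun r hr h1 => hcard r hr (h1.trans (Subgroup.relIndex_dvd_card _ _))
    have hH1 : H = ⊤ := Subgroup.index_eq_one.mp
      (Nat.eq_one_of_dvd_coprimes (coprime_of_primes τ hi hcard) dvd_rfl H.index_dvd_card)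
    subst hH1
    refine hfin ((⨅ r, L r) ⊓ N) (le_inf (le_iInf fun r => hDN _ _ r.2.1 (hL r)) (hDN q N hq hN)) ?_
    exact solvable_of_surjective (f := (⊤ : Subgroup ↥((⨅ r, L r) ⊓ N)).subtype)
      fun g => ⟨⟨g, trivial⟩, rfl⟩

theorem main [Finite G] (hG : ¬ Group.IsSolvable G) (p q : ℕ) (hp : p.Prime) (hq : q.Prime)
    (hpq : p ≠ q) (hp' : ∃ x : G, p ∣ ind x) (hq' : ∃ x : G, q ∣ ind x) :
    (∃ x : G, p * q ∣ ind x) ∨ ∃ r : ℕ, r.Prime ∧ r ≠ p ∧ r ≠ q ∧ (∃ x : G, p * r ∣ ind x) ∧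
      (∃ y : G, r * q ∣ ind y) := by
  by_contra hh
  obtain ⟨h1, h2⟩ := not_or.mp hh
  have hm : ∀ {a b n : ℕ}, a.Prime → b.Prime → a ≠ b → a ∣ n → b ∣ n → a * b ∣ n :=
    fun ha hb hab h3 h4 => ((Nat.coprime_primes ha hb).mpr hab).mul_dvd_of_dvd_of_dvd h3 h4
  have hd : ∀ r : ℕ, r.Prime → (∃ a : G, p ∣ ind a ∧ r ∣ ind a) →
      (∃ b : G, q ∣ ind b ∧ r ∣ ind b) → False := by
    rintro r hr ⟨a, ha1, ha2⟩ ⟨b, hb1, hb2⟩
    by_cases hrp : r = p
    · exact h1 ⟨b, hm hp hq hpq (hrp ▸ hb2) hb1⟩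
    by_cases hrq : r = q
    · exact h1 ⟨a, hm hp hq hpq ha1 (hrq ▸ ha2)⟩
    exact h2 ⟨r, hr, hrp, hrq, ⟨a, hm hp hr (Ne.symm hrp) ha1 ha2⟩, b, hm hr hq hrq hb2 hb1⟩
  obtain ⟨x, hx⟩ := hp'
  obtain ⟨y, hy⟩ := hq'
  rcases Cfsg.Agent.S4160.result p q hp hq hpq ⟨x, hx⟩ ⟨y, hy⟩ (fun z hz => h1 ⟨z, hz⟩) with h | h
  · exact core hG hq hp hpq.symm hy hx (fun r hr h3 h4 => hd r hr h4 h3) h
  · exact core hG hp hq hpq hx hy hd h

end H98.CsMain
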