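import Cfsg.Agent.H2.DiSpec

/-! DIH-K: elements with an invariant reflection part are trivial. -/

set_option autoImplicit false
set_option linter.unusedSectionVars false

namespace H98.DiK

open DihedralGroup H2.Di Finset

variable {m : ℕ} [NeZero m]

/-- The automorphism shifting the reflections. -/
def sh (d : ZMod m) : DihedralGroup m ≃* DihedralGroup m where
  toFun | r y => r y | sr y => sr (y + d)
  invFun | r y => r y | sr y => sr (y - d)
  left_inv := by rintro (y | y) <;> simp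
  right_inv := by rintro (y | y) <;> simp
  map_mul' := by rintro (y | y) (z | z) <;> simp <;> ring

theorem sh_r (d y : ZMod m) : sh d (r y) = r y := rfl

theorem sh_sr (d y : ZMod m) : sh d (sr y) = sr (y + d) := rfl

/-- Elements of the same additive order are unit multiples of each other. -/
theorem unit_mul {x y : ZMod m} (h : addOrderOf x = addOrderOf y) : ∃ u : (ZMod m)ˣ, x = u * y := by
  have k : ∀ (u : (ZMod m)ˣ) (a : ℕ), a ∣ m → addOrderOf ((u : ZMod m) * a) * a = m := fun u a ha => by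
    have := addOrderOf_injective (AddMonoidHom.mulLeft (u : ZMod m)) u.isUnit.mul_right_injective (a : ZMod m)
    rw [AddMonoidHom.coe_mulLeft] at this
    rw [this, ZMod.addOrderOf_coe a (NeZero.ne m), Nat.gcd_eq_right ha, Nat.div_mul_cancel ha]
  obtain ⟨a, ha, _, ⟨u, rfl⟩, rfl⟩ := ZMod.eq_unit_mul_divisor x
  obtain ⟨b, hb, _, ⟨v, rfl⟩, rfl⟩ := ZMod.eq_unit_mul_divisor y
  obtain rfl : a = b := Nat.eq_of_mul_eq_mul_left (addOrderOf_pos _) ((h ▸ k u a ha).trans (k v b hb).symm)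
  exact ⟨u * v⁻¹, by simp [mul_assoc]⟩

theorem card_fibre {p : ℕ} (hp : 0 < p) (y : ZMod m) :
    #{z : ZMod m | (p : ZMod m) * z = p * y} ≤ p := by
  refine le_trans (card_le_card_of_injOn (fun z => z - y) (fun z hz => ?_) fun a _ b _ e => by simpa using e)
    (IsAddCyclic.card_nsmul_eq_zero_le (α := ZMod m) hp)
  simp only [coe_filter, mem_univ, true_and, Set.mem_setOf_eq] at hz ⊢
  rw [nsmul_eq_mul, mul_sub, hz, sub_self]

theorem sr_inv {S : Set (DihedralGroup m → ℤ)} (hS : SR S) (d : ZMod m) :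
    SR {X | X ∈ S ∧ ∀ c, X (sr (c + d)) = X (sr c)} where
  one := ⟨hS.one, fun _ => (if_neg nofun).trans (if_neg nofun).symm⟩
  mul X hX Y hY := ⟨hS.mul X hX.1 Y hY.1, fun c => by
    have k : ∀ Z : DihedralGroup m → ℤ, (∀ c, Z (sr (c + d)) = Z (sr c)) → ∀ g, Z (sh d g) = Z g := by
      rintro Z h (y | y)
      exacts [rfl, h y]
    refine (Fintype.sum_equiv (sh d).toEquiv _ _ fun h => ?_).symm
    change _ = X (sh d h) * Y ((sh d h)⁻¹ * sh d (sr c))
    rw [← map_inv, ← map_mul, k X hX.2, k Y hY.2]⟩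
  comp X hX Y hY φ := ⟨hS.comp X hX.1 Y hY.1 φ, fun c => congrArg₂ φ (hX.2 c) (hY.2 c)⟩
  symm X hX := hS.symm X hX.1
  p1 X hX := hS.p1 X hX.1
  p2 X hX := hS.p2 X hX.1
  p3 X hX := hS.p3 X hX.1

theorem rel_d (hM : JobM) {S : Set (DihedralGroup m → ℤ)} (hS : SR S) (hR : Rat S) {p : ℕ} {d : ZMod m}
    (hp : p.Prime) (hd : addOrderOf d = p) (hi : ∀ X ∈ S, ∀ c, X (sr (c + d)) = X (sr c))
    {g : DihedralGroup m} (hg : g ≠ 1) : Rel S g (r d) := by
  classical
  have := Fact.mk hp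
  have pd : (p : ZMod m) * d = 0 := by rw [← nsmul_eq_mul, ← hd, addOrderOf_nsmul_eq_zero]
  have hT := hS.ind_mem g
  obtain ⟨y, h1, h2⟩ : ∃ y : ZMod m, (p : ZMod m) * y = 0 ∧ Rel S g (r y) := by
    by_contra! hc
    have M := ((hM m _).2.2 p hp (hS.symm _ hT)).2 d hd (hi _ hT)
    have k : ∀ y, Rel S g (r y) → ∀ z : ZMod m, (p : ZMod m) * z = p * y → Rel S g (r z) := fun y hy z hz => by
      have h3 := (M (p * y)).2
      rw [Int.ModEq, hS.p1 _ (hS.map (hS.pw_mem hT p) (· % p)) (fun c => (M c).1) _ fun e => hc y e hy,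
        sum_boole, eq_comm, ← Int.dvd_iff_emod_eq_zero, Int.natCast_dvd_natCast] at h3
      have h4 := eq_of_subset_of_card_le (filter_subset _ _) ((card_fibre hp.pos y).trans
        (Nat.le_of_dvd (card_pos.2 ⟨y, by simp [hy]⟩) h3))
      exact (mem_filter.1 (h4.ge (by simp [hz]))).2
    have h5 := hS.p3 _ hT d (by rintro rfl; exact hp.one_lt.ne (by simpa using hd)) (by
      rintro (c | c)
      · exact if_congr ⟨fun h => k _ h _ (by rw [mul_add, pd, zero_add]),
          fun h => k _ h _ (by rw [mul_add, pd, zero_add])⟩ rfl rfl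
      · have := (hi _ hT (c - d)).symm
        rwa [sub_add_cancel] at this) g 1
    simp [Rel.refl, mt hS.eq_one_of_rel hg] at h5
  obtain ⟨u, rfl⟩ := unit_mul (x := y) (y := d) (hd ▸ addOrderOf_eq_prime (by rwa [nsmul_eq_mul])
    (by rintro rfl; exact hg (hS.eq_one_of_rel h2)))
  exact fun X hX => (h2 X hX).trans (hR X hX u d)

theorem jobK (hM : JobM) : JobK := fun _ _ _ hS hR _ d hp hd X hX hi _ _ hg hh =>
  have k := fun g => rel_d (g := g) hM (sr_inv hS d) (fun X hX => hR X hX.1) hp hd fun _ h => h.2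
  ((k _ hg).trans (k _ hh).symm) X ⟨hX, hi⟩

theorem jobL (hK : JobK) (hN : JobN) : JobL := fun m _ S hS hR p d hp hd K hS' h01 h1 ⟨g, hg⟩ hi h => by
  obtain ⟨c, hc⟩ := hS.exists_rel_r g
  refine hN m K p d (cv K K (r d)) hp hd h01 (hS.symm K hS') h1 ⟨c, hc K hS' ▸ hg⟩ hi (fun g hg =>
    hK m S hS hR p d hp hd _ (hS.mul K hS' K hS') (fun c => ?_) _ _ hg fun e => ?_) h
  · refine (Fintype.sum_equiv ((sh d).toEquiv.trans (Equiv.mulRight (r (-d)))) _ _ ?_).symm
    rintro (y | y)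
    · simp [sh_r, ← hi (y + -d), show c + d - (d + -y) = c + y by ring]
    · simp [sh_sr, ← hi (c - y), sub_add_eq_add_sub]
  · rw [r.inj e] at hd
    exact hp.one_lt.ne (by simpa using hd)

end H98.DiK
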