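import Cfsg.Agent.H48.DP3Spec
import Cfsg.Agent.H44.L168a

/-! # S3275, chapter (3): transport of the `L₃(2)` data along a surjection with 2-group kernel -/

set_option autoImplicit false

namespace H98.DpLT

open Subgroup Cfsg H98 H97 H48.DP Function
open scoped commutatorElement

universe u

variable {G X : Type*} [Group G] [Group X] {L : Subgroup G}

/-- The full preimage in `L ≤ G` of a subgroup of `X`. -/
def pull (f : L →* X) (U : Subgroup X) : Subgroup G := (U.comap f).map L.subtype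

variable {f : L →* X}

theorem mem_pull {U : Subgroup X} {a : L} : (a : G) ∈ pull f U ↔ f a ∈ U := by
  constructor
  · rintro ⟨b, hb, e⟩
    have : b = a := Subtype.ext e
    subst this
    exact hb
  · intro h
    exact ⟨a, h, rfl⟩

theorem pull_le (U : Subgroup X) : pull f U ≤ L := map_subtype_le _

theorem pull_top : pull f ⊤ = L :=
  le_antisymm (pull_le _) fun a ha => (mem_pull (a := ⟨a, ha⟩)).mpr (mem_top _)

theorem forall_pull {U : Subgroup X} {p : G → Prop} :
    (∀ a ∈ pull f U, p a) ↔ ∀ a : L, f a ∈ U → p a :=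
  ⟨fun h a ha => h a (mem_pull.mpr ha),
    fun h a ha => h ⟨a, pull_le U ha⟩ (mem_pull.mp ha)⟩

theorem pull_mono {U V : Subgroup X} (h : U ≤ V) : pull f U ≤ pull f V :=
  map_mono (comap_mono h)

theorem pull_le_iff (hs : Surjective f) {U V : Subgroup X} : pull f U ≤ pull f V ↔ U ≤ V := by
  refine ⟨fun h x hx => ?_, pull_mono⟩
  obtain ⟨a, rfl⟩ := hs x
  exact mem_pull.mp (h (mem_pull.mpr hx))

theorem pull_inj (hs : Surjective f) {U V : Subgroup X} : pull f U = pull f V ↔ U = V :=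
  ⟨fun h => le_antisymm ((pull_le_iff hs).mp h.le) ((pull_le_iff hs).mp h.ge), fun h => h ▸ rfl⟩

theorem pull_sup (hs : Surjective f) (U V : Subgroup X) :
    pull f (U ⊔ V) = pull f U ⊔ pull f V := by
  unfold pull
  rw [← comap_sup_eq f U V hs, Subgroup.map_sup]

theorem pull_relIndex (hs : Surjective f) (U V : Subgroup X) :
    (pull f U).relIndex (pull f V) = U.relIndex V := by
  unfold pull
  rw [relIndex_map_map_of_injective _ _ L.subtype_injective, relIndex_comap,
    map_comap_eq_self_of_surjective hs]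

theorem pull_norm (hs : Surjective f) {U V : Subgroup X} :
    pull f U ≤ No (pull f V) ↔ U ≤ No V := by
  constructor
  · intro h x hx
    obtain ⟨a, rfl⟩ := hs x
    have ha := h (mem_pull.mpr hx)
    rw [mem_normalizer_iff] at ha ⊢
    intro y
    obtain ⟨b, rfl⟩ := hs y
    have := ha b
    rw [mem_pull] at this
    rw [this, ← map_inv, ← map_mul, ← map_mul, ← mem_pull]
    rfl
  · intro h
    refine forall_pull.mpr fun a ha => ?_
    have ha' := h ha
    rw [mem_normalizer_iff] at ha' ⊢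
    intro y
    by_cases hy : y ∈ L
    · have := ha' (f ⟨y, hy⟩)
      rw [← map_inv, ← map_mul, ← map_mul, ← mem_pull, ← mem_pull] at this
      exact this
    · refine ⟨fun h1 => absurd (pull_le V h1) hy, fun h1 => absurd ?_ hy⟩
      have h2 := L.mul_mem (L.mul_mem (L.inv_mem a.2) (pull_le V h1)) a.2
      simpa [mul_assoc] using h2

theorem exists_pull {N : Subgroup G} (h1 : pull f ⊥ ≤ N) (h2 : N ≤ L) : ∃ U, N = pull f U := by
  refine ⟨(N.subgroupOf L).map f, le_antisymm (fun a ha => ?_) (forall_pull.mpr fun a ha => ?_)⟩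
  · exact (mem_pull (a := ⟨a, h2 ha⟩)).mpr ⟨⟨a, h2 ha⟩, ha, rfl⟩
  · obtain ⟨b, hb, e⟩ := ha
    have h3 : ((b⁻¹ * a : L) : G) ∈ pull f ⊥ := mem_pull.mpr (by rw [map_mul, map_inv, e]; simp)
    have h4 := N.mul_mem (show (b : G) ∈ N from hb) (h1 h3)
    simpa using h4

theorem pull_two (hk : IsPGroup 2 f.ker) {U : Subgroup X} (h : IsPGroup 2 U) :
    IsPGroup 2 (pull f U) := (h.comap_of_ker_isPGroup f hk).map _

theorem two_of_pull (hs : Surjective f) {U : Subgroup X} (h : IsPGroup 2 (pull f U)) :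
    IsPGroup 2 U := by
  have h1 : IsPGroup 2 (U.comap f) :=
    h.of_equiv (equivMapOfInjective _ _ L.subtype_injective).symm
  have h2 := h1.map f
  rwa [map_comap_eq_self_of_surjective hs] at h2

theorem pull_o2 (hs : Surjective f) (hk : IsPGroup 2 f.ker) (U : Subgroup X) :
    O2 (pull f U) = pull f (O2 U) := by
  have h1 : pull f (O2 U) ≤ O2 (pull f U) :=
    le_pCoreOf (pull_two hk (isPGroup_pCoreOf U)) (pull_mono (pCoreOf_le U))
      ((pull_norm hs).mpr (self_le_normalizer_pCoreOf U))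
  refine le_antisymm ?_ h1
  obtain ⟨V, hV⟩ := exists_pull (f := f) ((pull_mono bot_le).trans h1)
    ((pCoreOf_le _).trans (pull_le U))
  rw [hV]
  refine pull_mono (le_pCoreOf (two_of_pull hs (hV ▸ isPGroup_pCoreOf _)) ?_ ?_)
  · exact (pull_le_iff hs).mp (hV ▸ pCoreOf_le _)
  · exact (pull_norm hs).mp (hV ▸ self_le_normalizer_pCoreOf _)

theorem pull_o2_top (hs : Surjective f) (hk : IsPGroup 2 f.ker) : O2 L = pull f (O2 ⊤) := by
  rw [← pull_o2 hs hk, pull_top]

theorem ord_three (hk : IsPGroup 2 f.ker) {a : L} (h : orderOf (a : G) = 3) :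
    orderOf (f a) = 3 := by
  rw [orderOf_coe] at h
  haveI : Fact (Nat.Prime 3) := ⟨Nat.prime_three⟩
  refine orderOf_eq_prime (by rw [← map_pow, ← h, pow_orderOf_eq_one, map_one]) fun h1 => ?_
  obtain ⟨k, hk⟩ := hk ⟨a, h1⟩
  have h2 : a ^ 2 ^ k = 1 := congrArg Subtype.val hk
  have h3 := orderOf_dvd_of_pow_eq_one h2
  rw [h] at h3
  have := Nat.prime_three.dvd_of_dvd_pow h3
  omega

theorem s3_pull (hs : Surjective f) (hk : IsPGroup 2 f.ker) {T P : Subgroup X} (h : S3 T P) :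
    S3 (pull f T) (pull f P) :=
  ⟨pull_mono h.le, pull_two hk h.two, by rw [pull_relIndex hs, h.idx],
    fun h1 => h.nn ((pull_norm hs).mp h1)⟩

theorem s3_of_pull (hs : Surjective f) {T P : Subgroup X} (h : S3 (pull f T) (pull f P)) :
    S3 T P :=
  ⟨(pull_le_iff hs).mp h.le, two_of_pull hs h.two, by rw [← pull_relIndex hs, h.idx],
    fun h1 => h.nn ((pull_norm hs).mpr h1)⟩

theorem lh_pull (hs : Surjective f) (hk : IsPGroup 2 f.ker) {T P R : Subgroup X}
    (h : LH T P R ⊤) : LH (pull f T) (pull f P) (pull f R) L := by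
  refine ⟨s3_pull hs hk h.s3, pull_le _, ?_, ?_, ?_, ?_, ?_, ?_⟩
  · rw [pull_o2_top hs hk, pull_o2 hs hk]
    exact pull_mono h.le
  · rw [pull_o2_top hs hk, pull_o2 hs hk, pull_relIndex hs, h.idx]
  · rw [pull_o2_top hs hk, pull_o2 hs hk]
    refine forall_pull.mpr fun a ha => ?_
    have := h.el _ ha
    rw [← map_mul, ← mem_pull] at this
    exact this
  · rw [pull_o2_top hs hk, pull_o2 hs hk]
    refine forall_pull.mpr fun x hx h3 => forall_pull.mpr fun a ha hc => ?_
    refine mem_pull.mpr (h.fpf _ hx (ord_three hk h3) _ ha ?_)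
    rw [← map_commutatorElement, ← mem_pull]
    exact hc
  · refine forall_pull.mpr fun y hy hyT l hl => ?_
    rcases h.bru _ hy (fun h1 => hyT (mem_pull.mpr h1)) (f ⟨l, hl⟩) (mem_top _) with
      h1 | ⟨p, hp, p', hp', e⟩
    · exact Or.inl (mem_pull.mpr h1)
    · obtain ⟨a, rfl⟩ := hs p
      refine Or.inr ⟨a, mem_pull.mpr hp, ((a * y)⁻¹ * ⟨l, hl⟩ : L), mem_pull.mpr ?_,
        by simp [mul_assoc]⟩
      rw [map_mul, map_inv, map_mul, e, inv_mul_cancel_left]
      exact hp'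
  · obtain ⟨r₁, h1, r₂, h2, s₁, h3, s₂, h4, n1, n2, n3, n4, m1, m2, hu⟩ := h.nrm
    obtain ⟨r₁, rfl⟩ := hs r₁
    obtain ⟨r₂, rfl⟩ := hs r₂
    obtain ⟨s₁, rfl⟩ := hs s₁
    obtain ⟨s₂, rfl⟩ := hs s₂
    rw [pull_o2_top hs hk, pull_o2 hs hk, pull_o2 hs hk]
    refine ⟨r₁, mem_pull.mpr h1, r₂, mem_pull.mpr h2, s₁, mem_pull.mpr h3, s₂, mem_pull.mpr h4,
      fun h5 => n1 (mem_pull.mp h5), fun h5 => n2 (mem_pull.mp h5), fun h5 => n3 (mem_pull.mp h5),
      fun h5 => n4 (mem_pull.mp h5), ?_, ?_, forall_pull.mpr fun u hu' => ?_⟩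
    · simp only [← map_inv, ← map_mul] at m1
      exact mem_pull.mpr m1
    · simp only [← map_inv, ← map_mul] at m2
      exact mem_pull.mpr m2
    · obtain ⟨a, b, c, habc⟩ := hu _ hu'
      refine ⟨a, b, c, ?_⟩
      simp only [← map_inv, ← map_mul, ← map_pow] at habc
      exact mem_pull.mpr habc

theorem lt_pull (hs : Surjective f) (hk : IsPGroup 2 f.ker) {T P R : Subgroup X}
    (h : LT T P R ⊤) : LT (pull f T) (pull f P) (pull f R) L := by
  refine ⟨lh_pull hs hk h.h1, lh_pull hs hk h.h2, ?_, fun e => h.ne ((pull_inj hs).mp e), ?_,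
    fun N h1 h2 h3 => ?_, fun Y h1 h2 => ?_, ?_⟩
  · rw [← pull_sup hs, ← h.eq, pull_top]
  · have := pull_relIndex hs T ⊤
    rw [pull_top] at this
    rw [this, h.idx]
  · rw [pull_o2_top hs hk] at h1 ⊢
    obtain ⟨U, rfl⟩ := exists_pull ((pull_mono bot_le).trans h1) h2
    have h4 : pull f ⊤ ≤ No (pull f U) := by rw [pull_top]; exact h3
    rcases h.simple U ((pull_le_iff hs).mp h1) le_top ((pull_norm hs).mp h4) with e | e
    · exact Or.inl (by rw [e])
    · exact Or.inr (by rw [e, pull_top])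
  · obtain ⟨U, rfl⟩ := exists_pull ((pull_mono bot_le).trans h1.le) h2
    rcases h.ovr U (s3_of_pull hs h1) le_top with e | e
    · exact Or.inl (by rw [e])
    · exact Or.inr (by rw [e])
  · rw [pull_o2_top hs hk, pull_o2 hs hk, pull_o2 hs hk]
    refine forall_pull.mpr fun u hu n1 n2 h1 => ?_
    refine h.sq _ hu (fun h2 => n1 (mem_pull.mpr h2)) (fun h2 => n2 (mem_pull.mpr h2)) ?_
    rw [← map_mul, ← mem_pull]
    exact h1

/-- A surjection onto `X` with 2-group kernel can be adjusted so that `T` is the preimage of a given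
Sylow 2-subgroup. -/
theorem exists_adj [Finite G] {T : Subgroup G} (hT : IsSyl 2 T L) (f : L →* X)
    (hs : Surjective f) (hk : IsPGroup 2 f.ker) {T₀ : Subgroup X} (h2 : IsPGroup 2 T₀)
    (hi : T₀.relIndex ⊤ = 21) :
    ∃ f' : L →* X, Surjective f' ∧ IsPGroup 2 f'.ker ∧ pull f' T₀ = T := by
  have h1 : IsSyl 2 (pull f T₀) L := by
    refine isSyl_of_not_dvd_relIndex (pull_le _) (pull_two hk h2) ?_
    have := pull_relIndex hs T₀ ⊤
    rw [pull_top] at this
    rw [this, hi]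
    decide
  obtain ⟨g, hg, e⟩ := hT.exists_cj_eq h1
  let c : L ≃* L := MulAut.conj ⟨g, hg⟩
  refine ⟨f.comp c.toMonoidHom, hs.comp c.surjective, ?_, ?_⟩
  · rw [← MonoidHom.comap_ker]
    exact hk.comap_of_injective _ c.injective
  · have key : ∀ a : L, (a : G) ∈ pull (f.comp c.toMonoidHom) T₀ ↔ (a : G) ∈ T := fun a => by
      rw [mem_pull]
      change f (c a) ∈ T₀ ↔ _
      rw [← mem_pull, ← e]
      exact conj_mem_cj_iff
    exact le_antisymm (fun a ha => (key ⟨a, pull_le _ ha⟩).mp ha)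
      fun a ha => (key ⟨a, hT.le ha⟩).mpr ha

theorem jobLT (h : JobLTm) : JobLT.{u} := by
  intro G _ _ T L hT hs hc
  obtain ⟨e⟩ := H44.L168.equiv_sl hc
  obtain ⟨T₀, P₀, R₀, h0⟩ := h e.symm.isSimpleGroup
  have hk : IsPGroup 2 (e.toMonoidHom.comp (QuotientGroup.mk' (pCore 2 L))).ker := by
    rw [← MonoidHom.comap_ker, (MonoidHom.ker_eq_bot_iff _).mpr e.injective,
      MonoidHom.comap_bot, QuotientGroup.ker_mk']
    exact isPGroup_pCore 2 L
  obtain ⟨f, hf, hfk, hp⟩ := exists_adj hT (e.toMonoidHom.comp (QuotientGroup.mk' (pCore 2 L)))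
    (e.surjective.comp (QuotientGroup.mk'_surjective _)) hk h0.h1.s3.two h0.idx
  exact ⟨pull f P₀, pull f R₀, hp ▸ lt_pull hf hfk h0⟩

end H98.DpLT
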