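import Cfsg.Agent.H15.KGKit
import Cfsg.Agent.H87.Simple
import Cfsg.Agent.H98.Sylow

/-! Tower KG, slot C: the classes of the powers of an element of prime order. -/

set_option autoImplicit false

namespace H98.KG

open Classical Finset H15.KG H98

universe u

variable {G : Type u} [Group G] {p : ℕ} {x : G}

/-- the power of `x` by a unit mod `p` -/
def pw (x : G) (u : (ZMod p)ˣ) : G := x ^ (u : ZMod p).val

theorem pmod (h : orderOf x = p) (k : ℕ) : x ^ (k % p) = x ^ k := h ▸ pow_mod_orderOf x k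

variable [hp : Fact p.Prime]

theorem pw_mul (h : orderOf x = p) (u v : (ZMod p)ˣ) : pw x (u * v) = pw x u ^ (v : ZMod p).val := by
  rw [pw, pw, Units.val_mul, ZMod.val_mul, ← pow_mul, pmod h]

theorem pw_one : pw x (1 : (ZMod p)ˣ) = x := by rw [pw, Units.val_one, ZMod.val_one, pow_one]

theorem pw_inj (h : orderOf x = p) {u v : (ZMod p)ˣ} (e : pw x u = pw x v) : u = v :=
  Units.ext (ZMod.val_injective p (pow_injOn_Iio_orderOf ((ZMod.val_lt _).trans_eq h.symm)
    ((ZMod.val_lt _).trans_eq h.symm) e))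

theorem pw_inv (h : orderOf x = p) (u : (ZMod p)ˣ) : pw x u ^ ((u⁻¹ : (ZMod p)ˣ) : ZMod p).val = x := by
  rw [← pw_mul h, mul_inv_cancel, pw_one]

theorem ord_pw (h : orderOf x = p) (u : (ZMod p)ˣ) : orderOf (pw x u) = p :=
  (Nat.Coprime.orderOf_pow (h ▸ (ZMod.val_coe_unit_coprime u).symm)).trans h

theorem pw_conj (h : orderOf x = p) {u v : (ZMod p)ˣ} (w : (ZMod p)ˣ) (e : IsConj (pw x u) (pw x v)) :
    IsConj (pw x (u * w)) (pw x (v * w)) := by
  rw [pw_mul h, pw_mul h]; exact e.pow _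

theorem exists_pw (h : orderOf x = p) {y : G} (hy : y ∈ Subgroup.zpowers x) (y1 : y ≠ 1) :
    ∃ u : (ZMod p)ˣ, pw x u = y := by
  obtain ⟨k, rfl⟩ := (orderOf_pos_iff.1 (h ▸ hp.out.pos)).mem_powers_iff_mem_zpowers.2 hy
  refine ⟨Units.mk0 (k : ZMod p) fun e => y1 (orderOf_dvd_iff_pow_eq_one.1
    (h ▸ (ZMod.natCast_eq_zero_iff k p).1 e)), ?_⟩
  rw [pw, Units.val_mk0, ZMod.val_natCast, pmod h]

/-- the units `u` with `x` conjugate to `x ^ u` -/
def aut (h : orderOf x = p) : Subgroup (ZMod p)ˣ where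
  carrier := {u | IsConj x (pw x u)}
  one_mem' := show IsConj x (pw x 1) by rw [pw_one]
  mul_mem' {u v} a b := b.trans (by
    simpa using pw_conj h v (u := 1) (v := u) (by rwa [pw_one]))
  inv_mem' {u} a := IsConj.symm (by
    simpa [pw_one] using pw_conj h u⁻¹ (u := 1) (v := u) (by rwa [pw_one]))

theorem conj_iff (h : orderOf x = p) {u v : (ZMod p)ˣ} :
    IsConj (pw x u) (pw x v) ↔ u⁻¹ * v ∈ aut h :=
  ⟨fun e => by
    have := pw_conj h u⁻¹ e
    rwa [mul_inv_cancel, pw_one, mul_comm] at this, fun e => by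
    have := pw_conj h u (u := 1) (v := u⁻¹ * v) (by rw [pw_one]; exact e)
    rwa [one_mul, mul_comm, mul_inv_cancel_left] at this⟩

variable [Finite G]

theorem exists_ord (h : orderOf x = p) : ∃ y : G, orderOf y = Nat.card (aut h) := by
  obtain ⟨u, hu⟩ := IsCyclic.exists_ofOrder_eq_natCard (α := aut h)
  obtain ⟨g, hg⟩ := isConj_iff.1 u.2
  have k : ∀ n : ℕ, g ^ n * x * (g ^ n)⁻¹ = pw x (u.1 ^ n) := fun n => by
    induction n with
    | zero => simp [pw_one]
    | succ n ih =>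
      rw [pow_succ', pow_succ', pw_mul h, ← hg, conj_pow, show x ^ _ = pw x (u.1 ^ n) from rfl, ← ih]
      group
  refine ⟨_, orderOf_pow_orderOf_div (orderOf_pos g).ne' ?_⟩
  rw [← hu, ← Subgroup.orderOf_coe, orderOf_dvd_iff_pow_eq_one]
  exact pw_inj h (by rw [← k, pow_orderOf_eq_one, pw_one]; group)

omit hp in
theorem le_cnt {r e : ℕ} (hr : r.Prime) {y : G} (h : r ^ e ∣ orderOf y) : e ≤ (dat G).cnt r := by
  have : ∀ k : Fin e, ∃ i : Cl G, orderOf (rep i) = r ^ (k + 1 : ℕ) := fun k => by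
    have o := orderOf_pow_orderOf_div (orderOf_pos y).ne' ((pow_dvd_pow r k.2).trans h)
    obtain ⟨i, hi⟩ := exists_rep (fun e => (Nat.one_lt_pow (by omega) hr.one_lt).ne
      ((orderOf_eq_one_iff.2 e).symm.trans o))
    exact ⟨i, (ord_conj hi).symm.trans o⟩
  choose f hf using this
  refine (card_fin e).ge.trans (card_le_card_of_injOn f (fun k _ => ?_) fun k _ l _ e => ?_)
  · exact mem_coe.2 (mem_filter.2 ⟨mem_univ _, p1_of_pow hr (hf k)⟩)
  · exact Fin.ext (Nat.succ_injective (Nat.pow_right_injective hr.two_le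
      ((hf k).symm.trans (e ▸ hf l))))

omit hp in
theorem avail (hN : NT G) (y : G) : (dat G).Avail (orderOf y) := by
  by_cases y1 : y = 1
  · exact .inl (orderOf_eq_one_iff.2 y1)
  obtain ⟨i, hi⟩ := exists_rep y1
  rw [ord_conj hi]
  by_cases h : p2 (rep i) = 1
  · obtain ⟨e, he⟩ := pow_of_p2 (rep_ne i) h
    refine .inr ⟨i, e + 1, 0, le_cnt (p1_prime (rep_ne i)) he.symm.dvd, Nat.zero_le _,
      by rw [pow_zero, mul_one]; exact he, ?_⟩
    rw [show (dat G).q i = 1 from h, mul_one]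
    exact Nat.minFac_dvd _
  · obtain ⟨a, b, -, e, f, he⟩ := ord_of_p2 hN h
    exact .inr ⟨i, e + 1, f + 1, le_cnt a (Dvd.intro _ he.symm), le_cnt b (Dvd.intro_left _ he.symm),
      he, he ▸ mul_dvd_mul (dvd_pow_self _ (by omega)) (dvd_pow_self _ (by omega))⟩

omit [Finite G] in
theorem pw_ne (h : orderOf x = p) (u : (ZMod p)ˣ) : pw x u ≠ 1 := fun e =>
  hp.out.one_lt.ne ((orderOf_eq_one_iff.2 e).symm.trans (ord_pw h u))

theorem idx (h : orderOf x = p) (d : Cl G) : (aut h).index ≤ (dat G).cnt p ∧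
    ((∀ i : Cl G, p1 (rep i) = p → p2 (rep i) = 1 → ∃ u : (ZMod p)ˣ, IsConj (pw x u) (rep i)) →
      (aut h).index = (dat G).cnt p) := by
  let f : (ZMod p)ˣ ⧸ aut h → Cl G := fun q => cls (pw x q.out) d
  have a : ∀ q ∈ (univ : Finset _), f q ∈ univ.filter fun i => (dat G).p i = p ∧ (dat G).q i = 1 :=
    fun q _ => mem_filter.2 ⟨mem_univ _, p1_of_pow (e := 0) hp.out
      ((ord_conj (conj_cls (pw_ne h _) d)).symm.trans ((ord_pw h _).trans (pow_one p).symm))⟩
  have b : Function.Injective f := fun q r e => by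
    rw [← q.out_eq', ← r.out_eq', QuotientGroup.eq, ← conj_iff]
    exact ((cls_eq_iff (pw_ne h _)).1 e).trans (conj_cls (pw_ne h _) d).symm
  rw [Subgroup.index, Nat.card_eq_fintype_card]
  refine ⟨card_le_card_of_injOn f a b.injOn, fun k => card_nbij f a b.injOn fun i hi => ?_⟩
  obtain ⟨u, hu⟩ := k i (mem_filter.1 hi).2.1 (mem_filter.1 hi).2.2
  exact ⟨u, mem_univ _, (cls_eq_iff (pw_ne h _)).2 (IsConj.trans ((conj_iff h).2
    (QuotientGroup.eq.1 (QuotientGroup.out_eq' _))) hu)⟩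

omit [Finite G] in
theorem idx_mul (h : orderOf x = p) : (aut h).index * Nat.card (aut h) + 1 = p := by
  rw [Subgroup.index_mul_card, Nat.card_eq_fintype_card, ZMod.card_units]
  exact Nat.sub_add_cancel hp.out.pos

theorem syl_zp (h : orderOf x = p) (hG : ¬ p ^ 2 ∣ Nat.card G) : IsSyl p (Subgroup.zpowers x) ⊤ :=
  isSyl_of_not_dvd_relIndex le_top (isPGroup_zpowers (k := 1) (by rw [pow_one, ← h, pow_orderOf_eq_one]))
    fun e => hG (by
      rw [Subgroup.relIndex_top_right] at e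
      rw [← (Subgroup.zpowers x).card_mul_index, Nat.card_zpowers, h, pow_two]
      exact mul_dvd_mul_left p e)

theorem jobC : JobC.{u} := fun G _ _ _ hG hN => by
  have ex : ∀ i : Cl G, ∃ x : G, orderOf x = p1 (rep i) := fun i =>
    ⟨_, orderOf_pow_orderOf_div (orderOf_pos (rep i)).ne' (Nat.minFac_dvd _)⟩
  refine ⟨fun i _ hs => ?_, fun i _ => ?_⟩
  · obtain ⟨x, h⟩ := ex i
    haveI := Fact.mk (p1_prime (rep_ne i))
    have S := syl_zp h hs
    have k : ∀ j : Cl G, p1 (rep j) = p1 (rep i) → p2 (rep j) = 1 →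
        ∃ u : (ZMod (p1 (rep i)))ˣ, IsConj (pw x u) (rep j) := fun j a b => by
      obtain ⟨e, he⟩ := pow_of_p2 (rep_ne j) b
      obtain ⟨g, -, hg⟩ := S.exists_cj_le (isPGroup_zpowers (k := e + 1) (x := rep j)
        (by rw [← a, ← he, pow_orderOf_eq_one])) le_top
      obtain ⟨u, hu⟩ := exists_pw h (hg (conj_mem_cj (Subgroup.mem_zpowers _)))
        (fun e => rep_ne j (by simpa using e))
      exact ⟨u, (isConj_iff.2 ⟨g, hu.symm⟩).symm⟩
    have c : ∀ j : Cl G, p1 (rep j) = p1 (rep i) → p2 (rep j) = 1 → cc (rep j) = cc x := fun j a b => by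
      obtain ⟨u, hu⟩ := k j a b
      rw [← cc_conj hu]
      exact Nat.dvd_antisymm ((cc_dvd_pow _ _).trans (congrArg cc (pw_inv h u)).dvd) (cc_dvd_pow _ _)
    obtain ⟨y, hy⟩ := exists_ord h
    refine ⟨fun j a b => (c j a b).trans (c i rfl ‹_›).symm, _, ?_, hy ▸ avail hN y,
      ((idx h i).2 k) ▸ idx_mul h⟩
    refine (Subgroup.one_lt_card_iff_ne_bot _).2 fun e => H87.not_normalizer_le_centralizer hG
      (h ▸ orderOf_dvd_natCard x) S.toSylowTop fun g hg => ?_
    obtain ⟨u, hu⟩ := exists_pw h ((Subgroup.mem_normalizer_iff.1 hg x).1 (Subgroup.mem_zpowers x))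
      (fun e => pw_ne h 1 (by simpa [pw_one] using e))
    have u1 : u = 1 := e.le (show u ∈ aut h from isConj_iff.2 ⟨g, hu.symm⟩)
    rw [u1, pw_one, eq_comm, mul_inv_eq_iff_eq_mul] at hu
    rintro _ ⟨n, rfl⟩
    exact (Commute.zpow_left hu.symm n).eq
  · obtain ⟨x, h⟩ := ex i
    haveI := Fact.mk (p1_prime (rep_ne i))
    obtain ⟨y, hy⟩ := exists_ord h
    exact ⟨_, _, (idx h i).1, hy ▸ avail hN y, idx_mul h⟩

end H98.KG
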