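import Cfsg.Agent.H15.KGSpec2

/-! Tower KG, slot St: soundness of the first stage of the search. -/

set_option autoImplicit false

namespace H98.KG

open Classical H15.KG

universe u

theorem mem_upto {p x : ℕ} {f : ℕ → List ℕ → List ℕ} (hf : ∀ c l, x ∈ l → x ∈ f c l) {l : List ℕ}
    (n c : ℕ) (h : x ∈ l ∨ ∃ e ≤ n, ∀ l, x ∈ f (c * p ^ e) l) : x ∈ upto n p f c l := by
  unfold upto
  induction n generalizing c with
  | zero =>
    rcases h with h | ⟨e, he, h⟩
    · exact hf _ _ h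
    · obtain rfl : e = 0 := by omega
      simpa using h l
  | succ n ih =>
    simp only [frc_eq, nmul] at ih ⊢
    rcases h with h | ⟨_ | e, he, h⟩
    · exact hf _ _ (ih _ (.inl h))
    · simpa using h _
    · exact hf _ _ (ih _ (.inr ⟨e, by omega, by rwa [mul_assoc, ← pow_succ']⟩))

theorem mem_avs {T : List (ℕ × ℕ)} {x : ℕ} (h : x = 1 ∨ ∃ t ∈ T, ∃ e ≤ cntT T t.1, ∃ f ≤ cntT T t.2,
    x = t.1 ^ e * t.2 ^ f) : x ∈ avs T := by
  unfold avs
  generalize cntT T = k at h
  have m : ∀ n p c l, x ∈ l → x ∈ upto n p List.cons c l := fun n p c l h =>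
    mem_upto (fun _ _ => .tail _) n c (.inl h)
  induction T with
  | nil => simpa using h
  | cons t T ih =>
    refine mem_upto (m _ _) _ _ ?_
    rcases h with h | ⟨s, hs, e, he, f, hf, h⟩
    · exact .inl (ih (.inl h))
    rcases List.mem_cons.1 hs with rfl | hs
    · exact .inr ⟨e, he, fun l => mem_upto (fun _ _ => .tail _) _ _
        (.inr ⟨f, hf, fun l => by simp [h]⟩)⟩
    · exact .inl (ih (.inr ⟨s, hs, e, he, f, hf, h⟩))

theorem rc_le {l c : ℕ} (h0 : 0 < l) (h : l ≤ c) : (1099511627776 : ℚ) * (1 / c) ≤ rc l := by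
  have h1 : (1099511627776 : ℚ) < (rc l : ℕ) * l := by
    exact_mod_cast (Nat.lt_div_mul_add h0).trans_eq (Nat.succ_mul _ _).symm
  have h2 : (l : ℚ) ≤ c := by exact_mod_cast h
  have h3 : (0 : ℚ) < l := by exact_mod_cast h0
  rw [mul_one_div, div_le_iff₀ (h3.trans_le h2)]
  exact h1.le.trans (mul_le_mul_of_nonneg_left h2 (Nat.cast_nonneg _))

/-- `tryT` with the two constants as variables -/
noncomputable def tryG (N : @& Nat) (M : ℕ) (ih : List (ℕ × ℕ) → Bool) (n : ℕ) (T : List (ℕ × ℕ)) (A : List ℕ)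
    (p q : ℕ) : Bool :=
  frc (Nat.mul p q) fun o => Bool.rec (motive := fun _ => Bool) true (ih ((p, q) :: T)) (Nat.ble N
    (Nat.add (Nat.add (sumL T fun t => rc (cmin T A o t)) (Nat.mul (Nat.add n 1) (rc (mx o 5)))) M))

theorem tryT_eq : tryT = tryG 1099511627776 (rc 5616) := by delta tryT tryG; exact Eq.refl _

theorem tryG_of {N M n p q : ℕ} {ih : List (ℕ × ℕ) → Bool} {T : List (ℕ × ℕ)} {A : List ℕ}
    (k : tryG N M ih n T A p q = true) (h : N ≤ (T.map fun t => rc (cmin T A (p * q) t)).sum +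
      (n + 1) * rc (max (p * q) 5) + M) : ih ((p, q) :: T) = true := by
  simp only [tryG, frc_eq, br, Nat.ble_eq, nmul, nadd, sumL_eq, mx_eq] at k
  rwa [if_pos h] at k

theorem isPr_of {p : ℕ} (hp : p.Prime) : isPr p = true := by
  simp only [isPr, allL_iff, br, Nat.beq_eq, nmod]
  intro d hd
  split_ifs with h
  · rcases (Nat.dvd_prime hp).1 (Nat.dvd_of_mod_eq_zero h) with rfl | rfl
    · simp at hd
    · simp
  · rfl

theorem mem_S1 {T : List (ℕ × ℕ)} {p : ℕ} (h : (p, 1) ∈ T) : p ∈ (List.rec [] (fun t _ r =>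
    Bool.rec (motive := fun _ => List ℕ) r (t.1 :: r) (Nat.beq t.2 1)) T : List ℕ) := by
  induction T with
  | nil => cases h
  | cons t T ih =>
    rcases List.mem_cons.1 h with rfl | h
    · exact .head _
    · simp only [br] at ih ⊢
      split_ifs
      exacts [.tail _ (ih h), ih h]

theorem mem_S2 {A : List ℕ} {a m n : ℕ} (h : a ∈ A) (hm : m < n) : (m + 1) * a + 1 ∈ (List.rec []
    (fun a _ r => Nat.rec r (fun m r => Nat.add (Nat.mul (Nat.add m 1) a) 1 :: r) n) A : List ℕ) := by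
  have k : ∀ (a : ℕ) (r : List ℕ) (n x : ℕ), (x ∈ r ∨ ∃ m < n, x = (m + 1) * a + 1) →
      x ∈ (Nat.rec r (fun m r => Nat.add (Nat.mul (Nat.add m 1) a) 1 :: r) n : List ℕ) := fun a r n x h => by
    induction n with
    | zero => simpa using h
    | succ n ih =>
      rcases h with h | ⟨m, hm, h⟩
      · exact .tail _ (ih (.inl h))
      rcases Nat.lt_succ_iff_lt_or_eq.1 hm with hm | rfl
      · exact .tail _ (ih (.inr ⟨m, hm, h⟩))
      · exact h ▸ .head _
  induction A with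
  | nil => cases h
  | cons b A ih =>
    rcases List.mem_cons.1 h with rfl | h
    exacts [k _ _ _ _ (.inr ⟨m, hm, rfl⟩), k _ _ _ _ (.inl (ih h))]

variable {ι : Type u} [Fintype ι] {D : Dat ι} {K o : ℕ} {xs ys : List ι} {A : List ℕ} {i : ι}

/-- the list of types -/
abbrev tl (D : Dat ι) (xs : List ι) : List (ℕ × ℕ) := xs.map fun i => (D.p i, D.q i)

/-- `xs` is listed, the types in `ys` are at least `o` -/
structure Cx (D : Dat ι) (K : ℕ) (xs ys : List ι) (o : ℕ) : Prop where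
  ax : D.Ax K
  nd : (xs ++ ys).Nodup
  all : ∀ i, i ∈ xs ++ ys
  big : ∀ y ∈ ys, o ≤ D.p y * D.q y

theorem qpos (h : D.Ax K) (i : ι) : 0 < D.q i := (h.qq i).elim (· ▸ one_pos) (·.1.pos)

theorem cpos (h : D.Ax K) (i : ι) : 0 < D.c i := lt_of_lt_of_le (by norm_num) (h.five i)

theorem ty_inj (h : D.Ax K) {i j : ι} (e : D.p i * D.q i = D.p j * D.q j) :
    (D.p i, D.q i) = (D.p j, D.q j) := by
  have k : ∀ i, (D.p i * D.q i).minFac = D.p i := fun i => by
    rcases h.qq i with r | ⟨r, l⟩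
    · rw [r, mul_one, (h.pp i).minFac_eq]
    have a := Nat.minFac_prime (n := D.p i * D.q i) fun e => (h.pp i).ne_one (Nat.eq_one_of_mul_eq_one_right e)
    have b := Nat.minFac_le_of_dvd (h.pp i).two_le (dvd_mul_right _ (D.q i))
    rcases (Nat.Prime.dvd_mul a).1 (Nat.minFac_dvd _) with c | c
    · exact (Nat.prime_dvd_prime_iff_eq a (h.pp i)).1 c
    · have := (Nat.prime_dvd_prime_iff_eq a r).1 c
      omega
  have a : D.p i = D.p j := by rw [← k i, e, k j]
  rw [a] at e ⊢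
  rw [Nat.eq_of_mul_eq_mul_left (h.pp j).pos e]

namespace Cx

variable (h : Cx D K xs ys o)
include h

theorem mem (l : D.p i * D.q i < o) : i ∈ xs :=
  (List.mem_append.1 (h.all i)).resolve_right fun k => (h.big i k).not_gt l

theorem cnt_eq {r : ℕ} (l : r < o) : cntT (tl D xs) r = D.cnt r := by
  have : cntT (tl D xs) r = (xs.filter fun i => D.p i = r ∧ D.q i = 1).length := by
    simp only [cntT, sumL_eq, br, Nat.beq_eq, List.map_map]
    clear h
    induction xs with
    | nil => rfl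
    | cons a t ih => by_cases a1 : D.p a = r <;> by_cases a2 : D.q a = 1 <;> simp [a1, a2, ih, add_comm]
  rw [this, ← List.toFinset_card_of_nodup (h.nd.of_append_left.filter _), Dat.cnt]
  congr 1
  ext j
  simpa using fun a b => h.mem (by rwa [a, b, mul_one])

theorem avail {a : ℕ} (ha : D.Avail a) (l : a < o) : a ∈ avs (tl D xs) := mem_avs (ha.imp_right
  fun ⟨i, e, f, h1, h2, h3, h4⟩ => by
    have p := (h.ax.pp i).pos
    have q := qpos h.ax i
    have k := (Nat.le_of_dvd (by rw [h3]; positivity) h4).trans_lt l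
    exact ⟨_, List.mem_map_of_mem (h.mem k), e, h1.trans (h.cnt_eq (by nlinarith)).ge, f,
      h2.trans (h.cnt_eq (by nlinarith)).ge, h3⟩)

theorem sq_dvd (hA : ∀ a, a ∈ A ↔ a ∈ avs (tl D xs)) (q : D.q i = 1) (l : D.p i < o)
    (k : ¬ sylOK (tl D xs) A (D.p i) = true) : D.p i * D.p i ∣ D.c i := by
  refine pow_two (D.p i) ▸ h.ax.sq i q (by_contra fun r => k ?_)
  obtain ⟨-, a, a1, a2, a3⟩ := h.ax.syl i q r
  simp only [sylOK, frc_eq, br, Nat.ble_eq, Nat.beq_eq, nadd, nmul, anyL_iff, h.cnt_eq l]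
  have := (h.ax.pp i).two_le
  refine ⟨a, (hA a).2 (h.avail a2 ?_), by rw [if_pos (show 2 ≤ a from a1)]; simpa using a3⟩
  rcases Nat.eq_zero_or_pos (D.cnt (D.p i)) with e | e
  · rw [e] at a3; omega
  · nlinarith

omit h in
theorem comp_dvd {n r : ℕ} (k : ∀ j, D.q j ≠ 1 → (D.p j = r → D.q j ∣ n) ∧ (D.q j = r → D.p j ∣ n)) :
    comp (tl D xs) r ∣ n := lcmL_dvd fun t ht => by
  obtain ⟨j, -, rfl⟩ := List.mem_map.1 ht
  simp only [br, Nat.beq_eq]
  split_ifs with a b c
  exacts [one_dvd _, (k j a).1 b, (k j a).2 c, one_dvd _]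

theorem lbd_le (q : D.q i = 1) : 0 < lbd (tl D xs) (D.p i) ∧ lbd (tl D xs) (D.p i) ≤ D.c i := by
  have e : lbd (tl D xs) (D.p i) = D.p i * min (comp (tl D xs) (D.p i)) (D.p i) := by
    simp only [lbd, frc_eq, br, Nat.ble_eq, nmul, min_def]
  have p := h.ax.pp i
  have c := cpos h.ax i
  have t := fun j => (h.ax.tdvd j).trans (h.ax.cdvd j)
  refine e ▸ ⟨Nat.mul_pos p.pos (lt_min (Nat.pos_of_dvd_of_pos (comp_dvd fun j _ =>
    ⟨fun _ => (dvd_mul_left _ _).trans (t j), fun _ => (dvd_mul_right _ _).trans (t j)⟩)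
      (lt_of_lt_of_le (by norm_num) h.ax.big)) p.pos), ?_⟩
  by_cases r : D.p i ^ 2 ∣ D.g
  · exact (Nat.mul_le_mul_left _ (min_le_right _ _)).trans
      (Nat.le_of_dvd c (pow_two (D.p i) ▸ h.ax.sq i q r))
  obtain ⟨m, hm⟩ := (dvd_mul_right _ _).trans (h.ax.tdvd i)
  have s := (h.ax.syl i q r).1
  rw [hm] at c s ⊢
  refine Nat.mul_le_mul_left _ ((min_le_left _ _).trans (Nat.le_of_dvd (Nat.pos_of_mul_pos_left c)
    (comp_dvd fun j hj => ?_)))
  obtain ⟨a1, a2, a3, a4, a5, a6⟩ := h.ax.par j hj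
  obtain ⟨b, l⟩ := (h.ax.qq j).resolve_left hj
  refine ⟨fun k => ((Nat.Prime.dvd_mul b).1 (s _ (a1.trans k) a2 ▸
      ((dvd_mul_left _ _).trans (h.ax.tdvd j)).trans a5)).resolve_left fun d => ?_,
    fun k => ((Nat.Prime.dvd_mul (h.ax.pp j)).1 (s _ (a3.trans k) a4 ▸
      ((dvd_mul_right _ _).trans (h.ax.tdvd j)).trans a6)).resolve_left fun d => ?_⟩
  · have := (Nat.prime_dvd_prime_iff_eq b p).1 d
    omega
  · have := (Nat.prime_dvd_prime_iff_eq (h.ax.pp j) p).1 d
    omega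

theorem cmin_le (hA : ∀ a, a ∈ A ↔ a ∈ avs (tl D xs)) (i : ι) :
    0 < cmin (tl D xs) A o (D.p i, D.q i) ∧ cmin (tl D xs) A o (D.p i, D.q i) ≤ D.c i := by
  have p := h.ax.pp i
  have c := h.ax.five i
  have t := h.ax.tdvd i
  simp only [cmin, frc_eq, br, Nat.ble_eq, Nat.beq_eq, nmul]
  by_cases q : D.q i = 1
  swap
  · rw [if_neg q]
    exact ⟨Nat.mul_pos p.pos (qpos h.ax i), Nat.le_of_dvd (by omega) t⟩
  rw [if_pos q]
  by_cases p2 : D.p i = 2
  · have := h.ax.sq i q (by rw [p2]; exact h.ax.four)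
    rw [p2] at this
    rw [if_pos p2]
    omega
  rw [if_neg p2]
  by_cases s : (if o ≤ D.p i then true else sylOK (tl D xs) A (D.p i)) = true
  swap
  · rw [if_neg s]
    split_ifs at s with l
    · exact absurd rfl s
    · exact ⟨Nat.mul_pos p.pos p.pos, Nat.le_of_dvd (by omega) (h.sq_dvd hA q (not_le.1 l) s)⟩
  rw [if_pos s]
  by_cases b : lbd (tl D xs) (D.p i) = 3
  swap
  · rw [if_neg b]; exact h.lbd_le q
  rw [if_pos b]
  simp only [lbd, frc_eq, br, Nat.ble_eq, nmul] at b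
  have p3 : D.p i = 3 := (Nat.prime_dvd_prime_iff_eq p Nat.prime_three).1 (Dvd.intro _ b)
  rw [q, p3] at t
  split_ifs with l
  · omega
  refine ⟨by norm_num, by_contra fun r => ?_⟩
  obtain ⟨j, ⟨j1, j2⟩, -⟩ := h.ax.top i q 2 0 Nat.prime_two (Ne.symm p2) (by omega)
  obtain ⟨-, l'⟩ := (h.ax.qq j).resolve_left j1
  have := (h.ax.pp j).two_le
  obtain ⟨j2, j3⟩ := j2.resolve_left fun k => by omega
  have j4 : D.q j = 3 := by rw [← (h.ax.par j j1).2.2.1, j2, p3]
  have : _ ∣ comp (tl D xs) (D.p i) := dvd_lcmL _ (List.mem_map_of_mem (f := fun i => (D.p i, D.q i))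
    (h.mem (i := j) (by rw [← j3, j4]; omega)))
  rw [← j3, j4, p3] at this
  rw [p3] at b
  change 2 ∣ _ at this
  split_ifs at b <;> omega

theorem tryT_ok {ih : List (ℕ × ℕ) → Bool} {n p q : ℕ} (hA : ∀ a, a ∈ A ↔ a ∈ avs (tl D xs))
    (e : p * q = o) (o0 : ys.length = n + 1) (k : tryT ih n (tl D xs) A p q = true) :
    ih ((p, q) :: tl D xs) = true := by
  refine tryG_of (tryT_eq ▸ k) ?_
  rw [e, List.map_map, Function.comp_def]
  have s := h.ax.sum
  rw [show (Finset.univ : Finset ι) = (xs ++ ys).toFinset from Finset.ext fun i => by simpa using h.all i,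
    List.sum_toFinset _ h.nd, List.map_append, List.sum_append] at s
  have g := rc_le (by norm_num) h.ax.big
  have k : ∀ (L : List ι) (f : ι → ℕ), (∀ i ∈ L, 0 < f i ∧ f i ≤ D.c i) → (1099511627776 : ℚ) *
      (L.map fun i => (1 : ℚ) / D.c i).sum ≤ ((L.map fun i => rc (f i)).sum : ℕ) := fun L f k => by
    induction L with
    | nil => simp
    | cons a t ih =>
      have := rc_le (k a (.head _)).1 (k a (.head _)).2
      have := ih fun i hi => k i (.tail _ hi)
      simp only [List.map_cons, List.sum_cons, Nat.cast_add]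
      linarith
  have a := k xs _ fun i _ => h.cmin_le hA i
  have b := k ys (fun _ => max o 5) fun i hi => ⟨by omega, max_le
    ((h.big i hi).trans (Nat.le_of_dvd (cpos h.ax i) (h.ax.tdvd i))) (h.ax.five i)⟩
  rw [List.map_const', List.sum_replicate, o0, smul_eq_mul] at b
  rw [← Nat.cast_le (α := ℚ), Nat.cast_add, Nat.cast_add, Nat.cast_ofNat]
  linarith

end Cx

theorem node1_ok (h : D.Ax K) {ih : List (ℕ × ℕ) → Bool} {n : ℕ} {T : List (ℕ × ℕ)}
    (hT : D.Pre T (n + 1)) (k : node1 ih n T = true) : ∃ T', D.Pre T' n ∧ ih T' = true := by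
  obtain ⟨_ | ⟨x, xs⟩, ys, nd, all, rfl, len, ne, pw, le⟩ := hT
  · exact absurd rfl ne
  obtain ⟨y, hy, mn⟩ := Finset.exists_min_image ys.toFinset (fun y => D.p y * D.q y)
    (List.toFinset_nonempty_iff _ |>.2 (List.ne_nil_of_length_eq_add_one len))
  simp only [List.mem_toFinset] at hy mn
  have c : Cx D K (x :: xs) ys (D.p y * D.q y) := ⟨h, nd, all, mn⟩
  have pm : ((y :: x :: xs) ++ ys.erase y).Perm ((x :: xs) ++ ys) :=
    List.perm_middle.symm.trans ((List.perm_cons_erase hy).symm.append_left _)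
  refine ⟨(D.p y, D.q y) :: tl D (x :: xs), ⟨y :: x :: xs, ys.erase y, pm.nodup_iff.2 nd,
    fun i => pm.mem_iff.2 (all i), rfl, by rw [List.length_erase_of_mem hy, len]; rfl, by simp,
    .cons (fun j hj => le j hj y hy) pw, fun j hj z hz => (List.mem_cons.1 hj).elim
      (· ▸ mn z (List.mem_of_mem_erase hz)) fun hj => le j hj z (List.mem_of_mem_erase hz)⟩, ?_⟩
  unfold node1 at k
  simp only [List.map_cons, frc_eq] at k
  obtain ⟨A, hA, k⟩ := frcL_spec k
  rw [br, br] at k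
  split_ifs at k with k1 k2
  obtain e | l := (le x (.head _) y hy).eq_or_lt
  · rw [← ty_inj h e]
    exact c.tryT_ok hA e len k1
  refine c.tryT_ok hA rfl len ?_
  have p := (h.pp y).two_le
  by_cases q : D.q y = 1
  · obtain ⟨S, hS, k⟩ := frcL_spec k
    obtain ⟨_ | m, a, m1, m2, m3⟩ := h.rat y q
    · omega
    have := allL_iff.1 k _ ((hS _).2 (mem_S2 ((hA a).2 (c.avail m2 (by rw [q]; nlinarith)))
      (show m < n + 1 from m1.trans ((Finset.card_le_card (t := ys.toFinset) fun j hj => by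
        obtain ⟨-, j1, j2⟩ := Finset.mem_filter.1 hj
        refine List.mem_toFinset.2 ((List.mem_append.1 (all j)).resolve_left fun r => l.not_ge ?_)
        rw [← j1, q, ← j2]
        exact (List.mem_cons.1 r).elim (· ▸ le_rfl) ((List.pairwise_cons.1 pw).1 j)).trans
        ((List.toFinset_card_le _).trans len.le)))))
    rw [q, mul_one] at l
    rw [m3, br, if_neg (by simpa using l), br, if_pos (isPr_of (h.pp y))] at this
    rwa [q]
  · obtain ⟨S, hS, k⟩ := frcL_spec k2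
    obtain ⟨a1, a2, a3, a4, -⟩ := h.par y q
    obtain ⟨b, l'⟩ := (h.qq y).resolve_left q
    have m : ∀ j, D.p j < D.p y * D.q y → D.q j = 1 → D.p j ∈ S := fun j a b => (hS _).2
      (mem_S1 (T := tl D (x :: xs)) (b ▸ List.mem_map_of_mem (f := fun i => (D.p i, D.q i))
        (c.mem (i := j) (by rwa [b, mul_one]))))
    have m1 := m (D.P y) (by rw [a1]; nlinarith) a2
    have m2 := m (D.Q y) (by rw [a3]; nlinarith) a4
    have := allL_iff.1 (allL_iff.1 k _ (a1 ▸ m1)) _ (a3 ▸ m2)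
    rwa [br, if_neg (by simpa using l'), br, if_neg (by simpa using l)] at this

theorem jobSt1 : JobSt1.{u} := fun _ _ _ _ h f r n => by
  induction n with
  | zero => exact fun T a b => ⟨T, zero_add r ▸ a, b⟩
  | succ n ih =>
    intro T a b
    obtain ⟨T', c, d⟩ := node1_ok h (n := n + r) (Nat.add_right_comm n 1 r ▸ a) 
      ((frc_eq (n + r) fun m => node1 (stage1 f r n) m T).symm.trans b)
    exact ih T' c d

theorem jobSt2 : JobSt2.{u} := fun ι _ D K h => by
  refine ⟨?_, ?_⟩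
  · obtain ⟨i, hi, -⟩ := h.itop
    obtain ⟨a, b⟩ := h.inv2 i hi
    have pm := List.perm_cons_erase (Finset.mem_toList.2 (Finset.mem_univ i))
    refine ⟨[i], _, pm.nodup_iff.1 (Finset.nodup_toList _), fun j => pm.mem_iff.1 (by simp),
      by simp [a, b], ?_, by simp, by simp, fun x hx y _ => ?_⟩
    · have := h.card
      simp only [List.length_erase_of_mem, Finset.mem_toList, Finset.mem_univ, Finset.length_toList,
        Finset.card_univ]
      omega
    · rw [List.mem_singleton.1 hx, a, b]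
      exact Nat.mul_le_mul (h.pp y).two_le (qpos h y)
  rintro _ ⟨xs, ys, nd, all, rfl, len, -⟩ k
  obtain rfl := List.length_eq_zero_iff.1 len
  have c : ∀ o, Cx D K xs [] o := fun o => ⟨h, nd, all, by simp⟩
  rw [List.append_nil] at nd all
  obtain ⟨i, j, i1, j1, i2, j2⟩ := h.three
  rw [stage2, br, if_pos (anyL_iff.2 ⟨_, List.mem_map_of_mem (all j), by
    rw [br, if_pos (by simpa using j1)]
    exact anyL_iff.2 ⟨_, List.mem_map_of_mem (all i), by
      simp only [br, Nat.ble_eq, Nat.beq_eq]; rw [if_pos i1, if_pos (show 3 ≤ D.p i from i2)]; simpa using j2⟩⟩)] at k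
  obtain ⟨A, hA, k⟩ := frcL_spec k
  let mk : ℕ × ℕ → Ty := fun t => if t.2 = 1 then ⟨t.1, 1, if sylOK (tl D xs) A t.1 = true then t.1
    else t.1 * t.1, lbd (tl D xs) t.1⟩ else ⟨t.1, t.2, 0, 0⟩
  have e : ∀ t k, mkTy (tl D xs) A t k = k (mk t) := fun t k => by
    simp only [mkTy, frc_eq, br, Nat.beq_eq, nmul, mk]
    split_ifs <;> rfl
  simp only [e] at k
  have r : ∀ (F : List Ty → Bool) (L : List (ℕ × ℕ)) (U : List Ty), List.rec (motive := fun _ => List Ty → Bool) F
      (fun t _ ih U => ih (mk t :: U)) L U = F ((L.map mk).reverse ++ U) := fun F L => by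
    induction L with
    | nil => exact fun _ => rfl
    | cons t L ih => exact fun U => (ih _).trans (by simp)
  refine ⟨fun i => mk (D.p i, D.q i), _, xs, ⟨fun i => ?_, fun i j a b => by simp only [a, b]⟩, nd, all,
    ?_, (r _ _ _).symm.trans k⟩
  · by_cases q : D.q i = 1
    · simp only [mk, if_pos q]
      refine ⟨trivial, q.symm, fun _ => ⟨?_, ?_, ((c 0).lbd_le q).2⟩⟩ <;> split_ifs with s
      exacts [(dvd_mul_right _ _).trans (h.tdvd i), (c _).sq_dvd hA q (Nat.lt_succ_self _) s,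
        ⟨1, (pow_one _).symm⟩, ⟨2, (pow_two _).symm⟩]
    · simp [mk, q]
  · rw [List.append_nil, List.map_map]
    exact List.reverse_perm _

end H98.KG
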