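import Cfsg.Agent.H36.NGSpec
import Cfsg.Agent.H87.PrimeSylow
import Cfsg.Agent.H87.Simple
import Cfsg.Agent.S0243

/-! Tower NG (S4338-S4340): the Sylow numbers of the groups of the list. -/

set_option autoImplicit false

namespace H98.NgRev

open H36.NG Matrix

universe u

variable {S : Type u} [Group S] [Finite S]

/-- The numbers for a Sylow subgroup of prime order: `|S| = p M`, `M = n e c`. -/
theorem dat [IsSimpleGroup S] (hc : ¬ IsMulCommutative S) (p : ℕ) [hp : Fact p.Prime] {g M : ℕ}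
    (hd : p ∣ Nat.card S) (h : g * Nat.card S = p * M) (hM : ¬ p ∣ M) :
    ∃ a m, 1 ≤ a ∧ 2 ≤ m ∧ 3 ≤ p ∧ Nat.card (Sylow p S) = a * p + 1 ∧ (a * p + 1) * (g * m) = M := by
  have h0 : Nat.card S ≠ 0 := Nat.card_pos.ne'
  have h2 := hp.out.two_le
  obtain ⟨P⟩ : Nonempty (Sylow p S) := inferInstance
  have h1 : (Nat.card S).factorization p = 1 := by
    have a1 := (hp.out.pow_dvd_iff_le_factorization (k := 1) h0).1 (by simpa using hd)
    have a2 : ¬ 2 ≤ (Nat.card S).factorization p := fun k => hM (by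
      have := ((hp.out.pow_dvd_iff_le_factorization h0).2 k).mul_left g
      rw [h, pow_two] at this
      exact Nat.dvd_of_mul_dvd_mul_left hp.out.pos this)
    omega
  obtain ⟨e, c, e1, e2, -, -, -, e3⟩ := H87.prime_sylow_data hc P (by
    rw [P.card_eq_multiplicity, h1, pow_one])
  have n1 := H87.card_sylow_ne_one hc p hd
  have n2 : Nat.card (Sylow p S) % p = 1 := by
    have := card_sylow_modEq_one p S
    rwa [Nat.ModEq, Nat.mod_eq_of_lt (show 1 < p by omega)] at this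
  have n3 : Nat.card (Sylow p S) = Nat.card (Sylow p S) / p * p + 1 := by
    rw [← n2, Nat.div_add_mod']
  generalize Nat.card (Sylow p S) / p = a at n3
  have c0 : c ≠ 0 := fun k => h0 (by rw [e3, k]; simp)
  have e4 := Nat.le_of_dvd (by omega) e2
  refine ⟨a, e * c, Nat.one_le_iff_ne_zero.2 fun k => n1 (by rw [n3, k]; simp),
    le_trans e1 (Nat.le_mul_of_pos_right _ (Nat.pos_of_ne_zero c0)), by omega, n3,
    Nat.eq_of_mul_eq_mul_left hp.out.pos ?_⟩
  rw [← h, e3, n3]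
  ring

omit [Finite S] in
theorem card2 {F : Type} [Field F] [Fintype F] {r : ℕ} (hF : Fintype.card F = r + 1)
    (e : Nonempty (S ≃* ProjectiveSpecialLinearGroup (Fin 2) F)) :
    Nat.gcd 2 r * Nat.card S = r * (r + 1) * (r + 2) := by
  obtain ⟨e⟩ := e
  have h := Cfsg.Agent.S0243.result hF 2 le_rfl
  have r0 : 0 < r := by have := Fintype.one_lt_card (α := F); omega
  rw [← Nat.card_congr e.toEquiv, Fin.prod_univ_two, Nat.add_sub_cancel,
    show (r + 1) ^ 2 - (r + 1) ^ ((0 : Fin 2) : ℕ) = r * (r + 2) from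
      Nat.sub_eq_of_eq_add (by simp; ring),
    show (r + 1) ^ 2 - (r + 1) ^ ((1 : Fin 2) : ℕ) = r * (r + 1) from
      Nat.sub_eq_of_eq_add (by simp; ring)] at h
  refine Nat.eq_of_mul_eq_mul_left r0 ?_
  rw [mul_left_comm, h]
  ring

theorem gcd_odd {r k : ℕ} (h : r + 1 = 2 ^ k) (h0 : 0 < r) : Nat.gcd 2 r = 1 := by
  rcases k with _ | k
  · omega
  · rw [pow_succ] at h
    exact (Nat.coprime_two_left.2 ⟨2 ^ k - 1, by have := Nat.two_pow_pos k; omega⟩)

variable [IsSimpleGroup S] (hc : ¬ IsMulCommutative S) (p : ℕ) [hp : Fact p.Prime]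
  (hd : p ∣ Nat.card S) {F : Type} [Field F] [Fintype F]
include hc hd

theorem rev1 (hF : Fintype.card F = p)
    (e : Nonempty (S ≃* ProjectiveSpecialLinearGroup (Fin 2) F)) :
    3 < p ∧ Nat.card (Sylow p S) = p + 1 := by
  obtain ⟨r, rfl⟩ : ∃ r, p = r + 1 := ⟨p - 1, by have := hp.out.pos; omega⟩
  have r0 : 0 < r := by have := hp.out.two_le; omega
  obtain ⟨a, m, a1, m2, p3, hn, h⟩ := dat hc (r + 1) (g := Nat.gcd 2 r) (M := r * (r + 2)) hd
    (by rw [card2 hF e]; ring) (fun k => by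
      rcases (Nat.Prime.dvd_mul hp.out).1 k with k | k
      · have := Nat.le_of_dvd r0 k; omega
      · have := Nat.le_of_dvd one_pos ((Nat.dvd_add_right dvd_rfl).1 k); omega)
  have g2 : Nat.gcd 2 r = 2 := by
    obtain ⟨j, hj⟩ := hp.out.odd_of_ne_two (by omega)
    exact Nat.gcd_eq_left ⟨j, by omega⟩
  rw [g2] at h
  have h1 : r + 1 ∣ 2 * m + 1 := (Nat.dvd_add_right (Dvd.intro (a * (2 * m)) rfl)).1
    ⟨r + 1, by nlinarith⟩
  have h2 := Nat.le_of_dvd (by omega) h1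
  have h3 : a = 1 := by
    by_contra k
    have : (2 * (r + 1) + 1) * r ≤ (a * (r + 1) + 1) * (2 * m) :=
      Nat.mul_le_mul (by nlinarith [show 2 ≤ a by omega]) (by omega)
    nlinarith
  subst h3
  have h4 : 2 * m = r := Nat.eq_of_mul_eq_mul_left (show 0 < r + 2 by omega) (by nlinarith)
  exact ⟨by omega, by rw [hn, one_mul]⟩

theorem rev2 (p3 : 3 < p) (hk : ∃ k : ℕ, p = 2 ^ k + 1) (hF : Fintype.card F = p - 1)
    (e : Nonempty (S ≃* ProjectiveSpecialLinearGroup (Fin 2) F)) :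
    2 * Nat.card (Sylow p S) = 2 + (p - 3) * p := by
  obtain ⟨r, rfl⟩ : ∃ r, p = r + 3 := ⟨p - 3, by omega⟩
  obtain ⟨k, hk⟩ := hk
  have hcd := card2 (r := r + 1) hF e
  rw [gcd_odd (k := k) (by omega) (by omega)] at hcd
  obtain ⟨a, m, a1, m2, -, hn, h⟩ := dat hc (r + 3) (g := 1) (M := (r + 1) * (r + 2)) hd
    (by rw [hcd]; ring) (fun k => by
      rcases (Nat.Prime.dvd_mul hp.out).1 k with k | k <;>
        have := Nat.le_of_dvd (by omega) k <;> omega)
  obtain ⟨j, rfl⟩ : ∃ j, m = j + 2 := ⟨m - 2, by omega⟩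
  have h1 : r + 3 ∣ j := (Nat.dvd_add_right (Dvd.intro (a * (j + 2)) rfl)).1 ⟨r, by nlinarith⟩
  have h2 : j = 0 := by
    by_contra k
    have := Nat.le_of_dvd (by omega) h1
    have : (r + 4) * (r + 5) ≤ (a * (r + 3) + 1) * (1 * (j + 2)) :=
      Nat.mul_le_mul (by nlinarith) (by omega)
    nlinarith
  subst h2
  rw [hn, Nat.add_sub_cancel]
  nlinarith

theorem rev4 (p3 : 3 < p) (hk : ∃ k : ℕ, p + 1 = 2 ^ k) (hF : Fintype.card F = p + 1)
    (e : Nonempty (S ≃* ProjectiveSpecialLinearGroup (Fin 2) F)) :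
    Nat.card (Sylow p S) < p ^ 2 := by
  obtain ⟨k, hk⟩ := hk
  have hcd := card2 hF e
  rw [gcd_odd hk (by omega)] at hcd
  obtain ⟨a, m, -, m2, -, hn, h⟩ := dat hc p (g := 1) (M := (p + 1) * (p + 2)) hd
    (by rw [hcd]; ring) (fun k => by
      rcases (Nat.Prime.dvd_mul hp.out).1 k with k | k <;>
        have := Nat.le_of_dvd (by omega) ((Nat.dvd_add_right dvd_rfl).1 k) <;> omega)
  have : (a * p + 1) * 2 ≤ (a * p + 1) * (1 * m) := Nat.mul_le_mul_left _ (by omega)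
  rw [hn]
  nlinarith

theorem rev3 (h13 : p = 13) (hF : Fintype.card F = 3)
    (e : Nonempty (S ≃* ProjectiveSpecialLinearGroup (Fin 3) F)) :
    Nat.card (Sylow p S) < p ^ 2 := by
  subst h13
  obtain ⟨e⟩ := e
  have h := Cfsg.Agent.S0243.result hF 3 (by decide)
  rw [← Nat.card_congr e.toEquiv, Fin.prod_univ_three] at h
  obtain ⟨a, m, -, m2, -, hn, h⟩ := dat hc 13 (g := 1) (M := 432) hd (by simp at h; omega) (by decide)
  have h1 : (a * 13 + 1) * 2 ≤ (a * 13 + 1) * (1 * m) := Nat.mul_le_mul_left _ (by omega)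
  have h2 : a * 13 + 1 ∣ 432 := Dvd.intro _ h
  have h3 : a < 17 := by omega
  rw [hn]
  interval_cases a <;> first | decide | omega

omit hc hd [IsSimpleGroup S] hp in
theorem jobRev : JobRev.{u} := by
  intro S _ _ _ hc p hp hd
  refine ⟨fun F _ _ => rev1 hc p hd, fun F _ _ => rev2 hc p hd, ?_⟩
  rintro (⟨F, _, _, hF, e⟩ | ⟨h, F, _, _, hF, e⟩ | ⟨p3, hk, F, _, _, hF, e⟩ | ⟨p3, hk, F, _, _, hF, e⟩)
  · obtain ⟨h1, h2⟩ := rev1 hc p hd hF e
    rw [h2]
    nlinarith
  · exact rev3 hc p hd h hF e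
  · have := rev2 hc p hd p3 hk hF e
    have h1 : (p - 3) * p ≤ p * p := Nat.mul_le_mul_right _ (by omega)
    nlinarith
  · exact rev4 hc p hd p3 hk hF e

end H98.NgRev
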