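import Cfsg.Agent.H42.PnSpec

/-! PN tower, slot FIN1: `y` centralises `R`. -/

set_option autoImplicit false
set_option linter.unusedSectionVars false

namespace H98.PnFin1

open Equiv MulAction Pointwise H2.Ln H42.PN

theorem jobFin1 (ix : Ix2) : Fin1 := by
  intro α _ _ G K R c ez y hy p hp yp yK h3 h2 k hk
  by_contra hc
  have yF := sm_eq_iff'.1 hy.2
  have yi : ∀ s, y⁻¹ s ∈ fp K ↔ s ∈ fp K := fun s => by rw [← yF]; simp
  have RK : R ≤ K := fun x hx => ((c.memR x).1 hx).1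
  have kF : ∀ x ∈ R, ∀ s, x s ∈ fp K ↔ s ∈ fp K := fun x hx => sm_eq_iff'.1 (sm_fp (RK hx))
  have sr : ∀ x ∈ R, ∀ s ∉ fp K, x s = s → x = 1 := fun x hx s hs e =>
    ((c.memR x).1 hx).2.resolve_right fun h => h s hs e
  have nr : ∀ x ∈ R, y * x * y⁻¹ ∈ R := fun x hx => (c.memR _).2 ⟨c.full (mem_fx.2
    ⟨G.mul_mem (G.mul_mem hy.1 (c.le (RK hx))) (G.inv_mem hy.1), fun a ha => by
      rw [Perm.mul_apply, Perm.mul_apply, mem_fp.1 ((yi a).2 ha) x (RK hx)]; simp⟩), ((c.memR x).1 hx).2.imp (fun e => by simp [e])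
      fun h s hs e => h (y⁻¹ s) (mt (yi s).1 hs) (Perm.eq_inv_iff_eq.2 e)⟩
  set Φ := (fp K)ᶜ \ y.support with hΦ
  have mΦ : ∀ s, s ∈ Φ ↔ s ∉ fp K ∧ y s = s := fun s => by simp [hΦ]
  have cS : (fp K)ᶜ.card = (fp K).card := by rw [Finset.card_compl, c.half]; omega
  have sub : ∀ x ∈ R, x • Φ ⊆ (fp K)ᶜ := fun x hx s hs =>
    Finset.mem_compl.2 (mt (kF _ (R.inv_mem hx) s).2 ((mΦ _).1 (mem_sm.1 hs)).1)
  have dj : ∀ a ∈ R, ∀ b ∈ R, y * (a⁻¹ * b) ≠ a⁻¹ * b * y → Disjoint (a • Φ) (b • Φ) :=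
    fun a ha b hb h => Finset.disjoint_left.2 fun s h1 h2 => h (by
      have m := R.mul_mem (R.inv_mem ha) hb
      obtain ⟨-, e1⟩ := (mΦ _).1 (mem_sm.1 h1)
      obtain ⟨e2, e3⟩ := (mΦ _).1 (mem_sm.1 h2)
      have := sr _ (R.mul_mem (R.inv_mem m) (nr _ m)) _ e2 (by
        simp only [Perm.mul_apply, Perm.inv_eq_iff_eq.2 e3.symm, mul_inv_rev, inv_inv]
        rw [show b (b⁻¹ s) = s by simp, e1]; simp)
      rwa [inv_mul_eq_one, eq_mul_inv_iff_mul_eq, eq_comm] at this)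
  have d1 : ∀ b ∈ R, y * b ≠ b * y → Disjoint Φ (b • Φ) := fun b hb h => by
    simpa using dj 1 R.one_mem b hb (by simpa using h)
  have s1 : Φ ⊆ (fp K)ᶜ := Finset.sdiff_subset
  have u1 : (Φ ∪ k • Φ).card = 2 * Φ.card := by
    rw [Finset.card_union_of_disjoint (d1 k hk hc), Finset.card_smul_finset, two_mul]
  have u2 := Finset.union_subset s1 (sub k hk)
  have two : ∀ b ∈ R, y * b ≠ b * y → y * (k⁻¹ * b) = k⁻¹ * b * y := fun b hb h => by
    by_contra h'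
    have := Finset.card_le_card (Finset.union_subset u2 (sub b hb))
    rw [Finset.card_union_of_disjoint (Finset.disjoint_union_left.2 ⟨d1 b hb h, dj k hk b hb h'⟩), u1,
      Finset.card_smul_finset] at this
    omega
  obtain ⟨h4, z, hz, e⟩ := ix _ R y p hp yp nr (Subgroup.index_eq_two_iff'.2 ⟨⟨k, hk⟩⁻¹, fun b => by
    simp only [Subgroup.mem_subgroupOf]
    by_cases h : (b : Perm α) ∈ Subgroup.centralizer {y}
    · exact .inr ⟨h, fun h' => hc ((Subgroup.inv_mem_iff _).1 ((Subgroup.mul_mem_cancel_right _ h).1 h')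
        y rfl)⟩
    · exact .inl ⟨Subgroup.mem_centralizer_singleton_iff.2 (two b b.2 fun e =>
        h (Subgroup.mem_centralizer_singleton_iff.2 e.symm)).symm, h⟩⟩)
  refine yK ((K.mul_mem_cancel_right (RK hz)).1 (ez _ (mem_sw.2 ⟨G.mul_mem hy.1 (c.le (RK hz)), by
    rw [mul_smul, sm_fp (RK hz)]; exact hy.2⟩) e fun s hs => ?_))
  obtain ⟨r, hr, m⟩ : ∃ r ∈ R, r s ∈ Φ := by
    by_contra! h
    have := Nat.card_le_card_of_injective (fun r : R => (⟨r.1 s, Finset.mem_sdiff.2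
      ⟨Finset.mem_compl.2 (mt (kF _ r.2 s).1 hs), fun m => (Finset.mem_union.1 m).elim (h _ r.2)
        fun m => h _ (R.mul_mem (R.inv_mem hk) r.2) (mem_sm.1 m)⟩⟩ : ↥((fp K)ᶜ \ (Φ ∪ k • Φ))))
      fun a b h => Subtype.ext (inv_mul_eq_one.1 (sr _ (R.mul_mem (R.inv_mem a.2) b.2) s hs
        (Perm.inv_eq_iff_eq.2 (congrArg Subtype.val h).symm)))
    rw [Nat.card_eq_finsetCard, Finset.card_sdiff_of_subset u2, u1, cS] at this
    omega
  refine mem_orb.2 ⟨_, R.mul_mem (R.mul_mem (R.inv_mem hr) (nr z hz)) hr, ?_⟩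
  rw [Perm.mul_apply, Perm.mul_apply, Perm.mul_apply, Perm.inv_eq_iff_eq.2 ((mΦ _).1 m).2.symm,
    ← Perm.mul_apply (y * z), e r hr]
  simp

end H98.PnFin1
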