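/- Orders of `r`-elements of a linear group without normal `r`-subgroups. -/
import Cfsg.Agent.H70.R3Spec
import Cfsg.Agent.H17.DdRed
import Cfsg.Agent.H40.TIDeg

set_option autoImplicit false

namespace H98.R3Exp

open Cfsg H28 H34.Dd IsLocalRing

universe u

/-- an `r'`-element in the kernel of the reduction acts trivially. -/
theorem eq_one_of_red {O : ValuationSubring ℂ} {r n l : ℕ} [_root_.CharP (ResidueField O) r]
    {M : Matrix (Fin n) (Fin n) O} (hl : ¬ r ∣ l) (h1 : M ^ l = 1)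
    (h2 : (residue O).mapMatrix M = 1) : M = 1 := by
  have hS : IsUnit (∑ i ∈ Finset.range l, M ^ i) := by
    rw [Matrix.isUnit_iff_isUnit_det, ← residue_ne_zero_iff_isUnit, RingHom.map_det, map_sum]
    simp only [map_pow, h2, one_pow, Finset.sum_const, Finset.card_range]
    rw [← Nat.cast_smul_eq_nsmul (ResidueField O), Matrix.det_smul, Matrix.det_one, mul_one]
    exact pow_ne_zero _ fun e => hl ((CharP.cast_eq_zero_iff _ r l).1 e)
  have h3 := geom_sum_mul M l
  rw [h1, sub_self] at h3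
  exact sub_eq_zero.1 (hS.mul_right_eq_zero.1 h3)

theorem pow_card_eq_zero {k : Type*} [Field k] {n : ℕ} {N : Matrix (Fin n) (Fin n) k}
    (h : IsNilpotent N) : N ^ n = 0 := by
  have h1 := (Matrix.isNilpotent_charpoly_sub_pow_of_isNilpotent h).eq_zero
  have h2 := Matrix.aeval_self_charpoly N
  rwa [sub_eq_zero.1 h1, map_pow, Polynomial.aeval_X, Fintype.card_fin] at h2

theorem jobExp : H70.R3.JobExp.{u} := by
  rintro X _ _ d r j g hr ⟨χ, hχ, hk, hd⟩ hO hg
  have := Fact.mk hr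
  obtain ⟨O, hch⟩ := H40.exists_valuationSubring_prime r
  obtain ⟨n, ρ, h1, ht⟩ := H17.Dd.jobLat O hχ
  have hn : charDegree χ = n := by simp [charDegree, h1]
  have hK : (redM ρ).ker = ⊥ := by
    refine hO _ inferInstance fun ⟨x, hx⟩ => ?_
    obtain ⟨a, m, hm, e⟩ := Nat.exists_eq_pow_mul_and_not_dvd (orderOf_pos x).ne' r hr.ne_one
    refine ⟨a, Subtype.ext ?_⟩
    have h2 : ρ (x ^ r ^ a) = 1 := by
      refine eq_one_of_red hm (by rw [← map_pow, ← pow_mul, ← e, pow_orderOf_eq_one, map_one]) ?_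
      exact MonoidHom.mem_ker.1 ((redM ρ).ker.pow_mem hx _)
    have h3 : x ^ r ^ a ∈ charKer χ := hχ.mem_charKer.2 (by rw [← ht, h2, h1]; simp)
    rwa [hk, Subgroup.mem_bot] at h3
  by_contra! hle
  have hne : g ^ r ^ j ≠ 1 := fun e => by
    have := orderOf_dvd_of_pow_eq_one e
    rw [hg, Nat.pow_dvd_pow_iff_le_right hr.one_lt] at this
    omega
  refine hne (Subgroup.mem_bot.1 (hK ▸ MonoidHom.mem_ker.2 ?_))
  rcases Nat.eq_zero_or_pos n with rfl | hpos
  · exact Subsingleton.elim _ _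
  have : Nonempty (Fin n) := ⟨⟨0, hpos⟩⟩
  have key : ∀ i, (redM ρ g - 1) ^ r ^ i = redM ρ (g ^ r ^ i) - 1 := fun i => by
    rw [sub_pow_char_pow_of_commute r i (Commute.one_right _), one_pow, map_pow]
  have h4 : IsNilpotent (redM ρ g - 1) :=
    ⟨r ^ (j + 1), by rw [key, ← hg, pow_orderOf_eq_one, map_one, sub_self]⟩
  rw [← sub_eq_zero, ← key]
  exact pow_eq_zero_of_le (by omega) (pow_card_eq_zero h4)

end H98.R3Exp
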