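import Cfsg.Agent.H30.SQSpec
import Cfsg.Agent.H8.TransferEval

/-! S4132, tower SQ, slot F: Thompson transfer in `C(z, t)`. -/

set_option autoImplicit false

namespace H98.SqF

open Subgroup Cfsg H30.SQ

universe u

variable {G : Type u} [Group G] {T U₀ : Subgroup G} {z ν v t : G}

theorem idx (h : FS T U₀ z ν v) (ht : t ∈ WS T z) (tz : t ≠ z) :
    U₀ ≤ T ⊓ centralizer {t} ∧ U₀.relIndex (T ⊓ centralizer {t}) = 2 := by
  refine ⟨fun u hu => ⟨h.le hu, mem_centralizer_singleton_iff.2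
    ((h.cS t ht tz u (h.le hu)).2 (.inl hu))⟩,
    relIndex_eq_two_iff.2 ⟨t, ⟨ht.1, mem_centralizer_singleton_iff.2 rfl⟩, fun b hb => ?_⟩⟩
  have := (h.cS t ht tz b hb.1).1 (mem_centralizer_singleton_iff.1 hb.2)
  have n : ¬ (b * t ∈ U₀ ∧ b ∈ U₀) := fun e => tz (h.sU t ((mul_mem_cancel_left e.2).1 e.1) ht.2)
  unfold Xor
  tauto

theorem card2 (h : FS T U₀ z ν v) (ht : t ∈ WS T z) (tz : t ≠ z) :
    Nat.card ↥(T ⊓ centralizer {t}) = Nat.card U₀ * 2 := by
  obtain ⟨h1, h2⟩ := idx h ht tz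
  rw [← h2, ← Nat.card_congr (subgroupOfEquivOfLe h1).toEquiv]
  exact (card_mul_index _).symm

theorem mem2 {c : G} : c ∈ centralizer ({z, t} : Set G) ↔ Commute c z ∧ Commute c t := by
  simp only [mem_centralizer_iff, Set.mem_insert_iff, Set.mem_singleton_iff, forall_eq_or_imp,
    forall_eq]
  exact and_congr eq_comm eq_comm

theorem odd [Finite G] {n : ℕ} (H : Hy T n) (h : FS T U₀ z ν v) (ht : t ∈ WS T z) (tz : t ≠ z) :
    ¬ 2 ∣ T.relIndex (centralizer {z, t}) := by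
  have := Fact.mk Nat.prime_two
  set C := centralizer ({z, t} : Set G)
  have TZ : T ≤ centralizer {z} := fun s hs => mem_centralizer_singleton_iff.2 (h.zc.2 s hs)
  obtain ⟨Q, hQ⟩ := (H.pg.comap_subtype (K := C)).exists_le_sylow
  obtain ⟨k, hk, h1⟩ := syl_conj (Q := (Q : Subgroup C).map C.subtype) TZ H.pg
    (fun e => H.odd (e.trans (relIndex_dvd_index_of_le TZ))) (Q.isPGroup'.map _) (by
      rintro _ ⟨c, -, rfl⟩; exact mem_centralizer_singleton_iff.2 (mem2.1 c.2).1)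
  have kz : k * z * k⁻¹ = z := by rw [mem_centralizer_singleton_iff.1 hk, mul_inv_cancel_right]
  have tC : t ∈ C := mem2.2 ⟨h.zc.2 t ht.1, rfl⟩
  have c1 := card2 h (t := k * t * k⁻¹) ⟨h1 t ⟨⟨t, tC⟩, hQ ht.1, rfl⟩, ht.2.trans (isConj_iff.2 ⟨k, rfl⟩)⟩
    fun e => tz (by simpa using e.trans kz.symm)
  rw [← card2 h ht tz] at c1
  have e : T.subgroupOf C = Q := eq_of_le_of_card_ge hQ (by
    have l : T ⊓ centralizer {t} = T ⊓ C := le_antisymm
      (fun s hs => ⟨hs.1, mem2.2 ⟨h.zc.2 s hs.1, mem_centralizer_singleton_iff.1 hs.2⟩⟩)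
      fun s hs => ⟨hs.1, mem_centralizer_singleton_iff.2 (mem2.1 hs.2).2⟩
    rw [← inf_subgroupOf_right, Nat.card_congr (subgroupOfEquivOfLe inf_le_right).toEquiv, ← l, ← c1]
    refine Nat.card_le_card_of_injective (fun q : (Q : Subgroup C) => ⟨k * q.1.1 * k⁻¹,
      h1 _ ⟨q.1, q.2, rfl⟩, mem_centralizer_singleton_iff.2
        ((mem2.1 q.1.2).2.map (MulAut.conj k))⟩) fun p q e => ?_
    exact Subtype.ext (Subtype.ext ((MulAut.conj k).injective (congrArg Subtype.val e))))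
  rw [relIndex, e]
  exact Q.not_dvd_index

theorem jobF : JobF.{u} := by
  intro G _ _ T U₀ n z ν v H h t ht tz r ⟨r1, r2, r3⟩ x hx hc
  by_contra nx
  have xz := (r3 x hx).resolve_left nx
  have zt : Commute t z := h.zc.2 t ht.1
  have tt : t * t = 1 := by
    obtain ⟨k, rfl⟩ := isConj_iff.1 ht.2
    rw [conj_mul, h.z2]; simp
  set C := centralizer ({z, t} : Set G)
  have tC : t ∈ C := mem2.2 ⟨zt, rfl⟩
  have WC : centralizer (WS T z) ≤ C := centralizer_le (by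
    rintro _ (rfl | rfl)
    exacts [⟨h.zc.1, IsConj.refl _⟩, ht])
  have rC : ∀ c ∈ C, r * c * r⁻¹ ∈ C := fun c hc => by
    have c1 : Commute (r * c * r⁻¹) (r * z * r⁻¹) := (mem2.1 hc).1.map (MulAut.conj r)
    have c2 : Commute (r * c * r⁻¹) (r * t * r⁻¹) := (mem2.1 hc).2.map (MulAut.conj r)
    rw [r2] at c1
    rw [r1] at c2
    exact mem2.2 ⟨by simpa using c1.mul_right c2.inv_right, c2⟩
  have h1 : r * x * r⁻¹ ∈ ⁅C, C⁆ := (commutator_le (H₃ := ⁅C, C⁆.comap (MulAut.conj r).toMonoidHom)).2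
    (fun a ha b hb => by
      rw [mem_comap, map_commutatorElement]
      exact commutator_mem_commutator (rC a (WC ha)) (rC b (WC hb))) hc
  have e : r * x * r⁻¹ = x * t := by
    have : r * x * r⁻¹ * (z * t) = x * z := by rw [← r2, conj_mul, ← xz.eq, mul_inv_cancel_right]
    rw [eq_mul_inv_of_mul_eq this, mul_inv_rev, inv_eq_of_mul_eq_one_right tt, mul_assoc, ← mul_assoc z,
      ← zt.eq, mul_inv_cancel_right]
  rw [e, mul_mem_cancel_left (commutator_mono WC WC hc)] at h1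
  obtain ⟨N, -, n1, n2⟩ := H8.thompson_transfer (T.subgroupOf C) (U₀.subgroupOf C)
    (Nat.not_even_iff_odd.1 fun ev => odd H h ht tz ev.two_dvd) (by
      rw [← inf_subgroupOf_right T, relIndex_subgroupOf inf_le_right, ← (idx h ht tz).2]
      congr 1
      exact le_antisymm (fun s hs => ⟨hs.1, mem_centralizer_singleton_iff.2 (mem2.1 hs.2).2⟩)
        fun s hs => ⟨hs.1, mem2.2 ⟨h.zc.2 s hs.1, mem_centralizer_singleton_iff.1 hs.2⟩⟩)
    ⟨t, tC⟩ (Subtype.ext (by simpa [pow_two] using tt)) fun g hg => tz (h.sU t (by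
      have : g.1 * t * g.1⁻¹ ∈ U₀ := hg
      rwa [(mem2.1 g.2).2.eq, mul_inv_cancel_right] at this) ht.2)
  obtain ⟨c, c1, c2⟩ := (commutator_le (H₃ := N.map C.subtype)).2 (fun a ha b hb =>
    ⟨(⟨a, ha⟩ : C) * ⟨b, hb⟩ * (⟨a, ha⟩ : C)⁻¹ * (⟨b, hb⟩ : C)⁻¹, by
      simp only [SetLike.mem_coe, mul_mem_iff_of_index_two n1, inv_mem_iff]
      tauto, rfl⟩) h1
  exact n2 ((Subtype.ext c2 : c = ⟨t, tC⟩) ▸ c1)

end H98.SqF
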