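import Cfsg.Agent.H34.X3Spec

/-! X3, slot Q: the columns of the quotient group. -/

set_option autoImplicit false
set_option linter.unusedSectionVars false

namespace H98.X3Q

open Subgroup Cfsg H28 H35 H36 H41 H34.X3
open scoped ComplexConjugate

universe u

theorem exists_reps {A : Type*} [Group A] [Fintype A] {E : Subgroup (MulAut A)}
    (hA : ∀ a b : A, a * b = b * a) (hE : ∀ e ∈ E, ∀ a, a ≠ 1 → e a = a → e = 1) :
    ∃ (n : ℕ) (r : Fin n → A →* ℂˣ), (∀ O, r O ≠ 1) ∧ (∀ O O', ERel E (r O) (r O') ↔ O = O') ∧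
      (∀ ψ, ψ ≠ 1 → ∃ O, ERel E (r O) ψ) ∧ n * Nat.card E + 1 = Nat.card A := by
  classical
  have : Finite (A →* ℂˣ) := Nat.finite_of_card_ne_zero (H83.card_hom hA ▸ Nat.card_pos.ne')
  let s : Setoid {ψ : A →* ℂˣ // ψ ≠ 1} :=
    ⟨fun a b => ERel E a.1 b.1, fun _ => ERel.refl _, ERel.symm, ERel.trans⟩
  obtain ⟨n, ⟨e⟩⟩ := Finite.exists_equiv_fin (Quotient s)
  have h1 : ∀ O O', ERel E (e.symm O).out.1 (e.symm O').out.1 ↔ O = O' := fun O O' =>
    (Quotient.out_equiv_out (x := e.symm O) (y := e.symm O')).trans e.symm.injective.eq_iff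
  have h2 : ∀ ψ, ψ ≠ 1 → ∃ O, ERel E (e.symm O).out.1 ψ := fun ψ hψ =>
    ⟨e (Quotient.mk s ⟨ψ, hψ⟩), by rw [e.symm_apply_apply]; exact Quotient.mk_out (s := s) ⟨ψ, hψ⟩⟩
  refine ⟨n, fun O => (e.symm O).out.1, fun O => (e.symm O).out.2, h1, h2, ?_⟩
  have h3 := Nat.card_eq_of_bijective (fun x : Σ O, {ψ | ERel E (e.symm O).out.1 ψ} =>
    (⟨x.2.1, ERel.ne_one x.2.2 (e.symm x.1).out.2⟩ : {ψ : A →* ℂˣ // ψ ≠ 1})) ⟨by
      rintro ⟨O, ψ, k⟩ ⟨O', ψ', k'⟩ h
      obtain rfl : ψ = ψ' := congrArg Subtype.val h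
      obtain rfl := (h1 O O').1 (ERel.trans k (ERel.symm k'))
      rfl, fun ψ => let ⟨O, k⟩ := h2 ψ.1 ψ.2; ⟨⟨O, ψ.1, k⟩, rfl⟩⟩
  rw [Nat.card_sigma, Finset.sum_congr rfl fun O _ => card_eRel hA hE (e.symm O).out.2] at h3
  rw [← H83.card_hom hA, ← Nat.card_congr (Equiv.optionSubtypeNe (1 : A →* ℂˣ)), Finite.card_option,
    ← h3]
  simp

variable {G : Type*} [Group G] [Fintype G]

theorem exists_conj {p : ℕ} [Fact p.Prime] (P : Sylow p G) {u : G} (h : IsPGroup p (zpowers u)) :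
    ∃ a ∈ (P : Subgroup G), IsConj a u := by
  obtain ⟨Q, hQ⟩ := h.exists_le_sylow
  obtain ⟨g, rfl⟩ := MulAction.exists_smul_eq G P Q
  obtain ⟨a, ha, e⟩ := hQ (mem_zpowers u)
  exact ⟨a, ha, isConj_iff.2 ⟨g, e⟩⟩

/-- The column of a linear character. -/
noncomputable def col (B : Set (IrrCharacter G)) (A : Subgroup G) [Fintype A] (ψ : A →* ℂˣ) :
    G → ℂ := ∑ χ ∈ bF B, ((mult A χ ψ - mult A χ 1 : ℤ) : ℂ) • χ.1

theorem inner_col (B : Set (IrrCharacter G)) (A : Subgroup G) [Fintype A] (ψ ψ' : A →* ℂˣ) :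
    classInner (col B A ψ) (col B A ψ') =
      ((∑ χ ∈ bF B, (mult A χ ψ - mult A χ 1) * (mult A χ ψ' - mult A χ 1) : ℤ) : ℂ) := by
  rw [col, col, (inB_sum_bF _).classInner_eq_sum, Int.cast_sum]
  refine Finset.sum_congr rfl fun χ hχ => ?_
  rw [classInner_sum_bF _ (mem_bF.1 hχ), ← classInner_conj_symm,
    classInner_sum_bF _ (mem_bF.1 hχ), map_intCast, Int.cast_mul]

theorem jobQ : JobQ.{u} := by
  intro Q _ _ P M _ hM h h9
  classical
  have : Fact (Nat.Prime 3) := ⟨Nat.prime_three⟩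
  have F := h.frobCol hM
  obtain ⟨n, r, r1, r2, r3, r4⟩ := exists_reps F.comm F.free
  have : Finite ((P : Subgroup Q) →* ℂˣ) :=
    Nat.finite_of_card_ne_zero (H83.card_hom F.comm ▸ Nat.card_pos.ne')
  have := Fintype.ofFinite ((P : Subgroup Q) →* ℂˣ)
  have g : ∀ O O', classInner (col (principalBlock M Q) P (r O)) (col (principalBlock M Q) P (r O')) =
      Nat.card (P : Subgroup Q).normalizerMonoidHom.range + if O' = O then 1 else 0 := fun O O' => by
    rw [inner_col]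
    simp only [sub_mul, Finset.sum_sub_distrib, F.gram, eRel_one_left, eRel_one_right, r1, r2,
      if_true, if_false]
    split_ifs <;> simp [add_comm]
  have c : ∀ ψ, ψ ≠ 1 → ∃ O, col (principalBlock M Q) P ψ = col (principalBlock M Q) P (r O) :=
    fun ψ hψ => let ⟨O, k⟩ := r3 ψ hψ
      ⟨O, Finset.sum_congr rfl fun χ hχ => by rw [F.mult_eq k (mem_bF.1 hχ)]⟩
  refine ⟨n, fun O => col _ P (r O), by omega, fun O => isGenChar_sum_bF _, fun O =>
    mem_Vb.2 ⟨inB_sum_bF _, fun x hx => ?_⟩, fun O => by rw [g, if_pos rfl],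
    fun O O' k => by rw [g, if_neg k.symm, add_zero], fun O => ?_, fun f hf => ?_, fun χ hχ => ?_⟩
  · simpa [col] using sum_mult_sub_mul_reg hM F.pg F.blk (r O) 1 hx
  · refine (classInner_sum_bF _ H34.one_mem_principalBlock).trans ?_
    rw [mult_of_eq_one rfl, mult_of_eq_one rfl, if_neg (r1 O), if_pos rfl]
    simp
  · obtain ⟨f1, f2⟩ := mem_Vb.1 hf
    have k : ∀ y : Q, f y • (fun x => bker (principalBlock M Q) x y) ∈ Submodule.span ℂ
        (Set.range fun O => col (principalBlock M Q) P (r O)) := fun y => by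
      by_cases hy : 3 ∣ orderOf y
      swap
      · rw [f2 y hy, zero_smul]; exact zero_mem _
      obtain ⟨v, hv⟩ := exists_isPPart Nat.prime_three y
      obtain ⟨w, -, -, ⟨j, hj⟩, -⟩ := id hv
      obtain ⟨a, ha, e⟩ := exists_conj P (IsPGroup.of_card (n := j) ((Nat.card_zpowers v).trans hj))
      have a1 : a ≠ 1 := fun k => not_dvd_of_isPPart_one (isConj_one_right.1 (k ▸ e) ▸ hv) hy
      have e1 : (fun x => bker (principalBlock M Q) x y) =
          ∑ ψ : (P : Subgroup Q) →* ℂˣ, conj (ψ ⟨a, ha⟩ : ℂ) • col (principalBlock M Q) P ψ := by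
        simp only [col, Finset.smul_sum]
        rw [bker_fun, Finset.sum_comm]
        refine Finset.sum_congr rfl fun χ hχ => ?_
        rw [H19.Loc2.prin_sec hM (h.hasNPC ha a1) (mem_bF.1 hχ) hv e,
          fourier_mult F.comm χ (a := ⟨a, ha⟩) (by simpa using a1) (mult (P : Subgroup Q) χ 1), map_sum,
          Finset.sum_smul]
        exact Finset.sum_congr rfl fun ψ _ => by rw [smul_smul, map_mul, map_intCast, mul_comm]
      refine Submodule.smul_mem _ _ (e1 ▸ sum_mem fun ψ _ => Submodule.smul_mem _ _ ?_)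
      by_cases k : ψ = 1
      · simp [col, k]
      · obtain ⟨O, k⟩ := c ψ k
        exact Submodule.subset_span ⟨O, k.symm⟩
    have e : f = (Nat.card Q : ℂ)⁻¹ • ∑ y, f y • fun x => bker (principalBlock M Q) x y := by
      simp only [bker_fun, Finset.smul_sum, smul_smul]
      rw [Finset.sum_comm]
      refine f1.eq_sum.trans (Finset.sum_congr rfl fun χ _ => ?_)
      rw [classInner_def, Finset.mul_sum, Finset.sum_smul]
    obtain ⟨s, hs⟩ := (Submodule.mem_span_range_iff_exists_fun ℂ).1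
      (Submodule.smul_mem _ (Nat.card Q : ℂ)⁻¹ (sum_mem fun y (_ : y ∈ Finset.univ) => k y))
    exact ⟨s, e.trans hs.symm⟩
  · by_contra k
    push Not at k
    have : Nontrivial (P : Subgroup Q) := Finite.one_lt_card_iff_nontrivial.1 (by omega)
    obtain ⟨a, ha⟩ := exists_ne (1 : (P : Subgroup Q))
    refine h.apply_ne_zero hM hχ a.2 (by simpa using ha) ?_
    rw [fourier_mult F.comm χ ha (mult (P : Subgroup Q) χ 1)]
    refine Finset.sum_eq_zero fun ψ _ => ?_
    by_cases k1 : ψ = 1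
    · simp [k1]
    · obtain ⟨O, k2⟩ := c ψ k1
      have := k O
      rw [← k2, col, classInner_sum_bF _ hχ] at this
      rw [this, zero_mul]

end H98.X3Q
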